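import Cfsg.Agent.Lib.Helper41.Dickson.MaxOddSub

/-!
# Span-closed subgroups of `PSL₂(F)`

The trace-field arguments for maximal subgroups of `PSL₂(F)` only use two closure properties, which
also hold for `M ∩ PSL₂(F)` when `M` is a maximal subgroup of `PGL₂(F)`.
-/

set_option autoImplicit false
set_option linter.style.haveILetI false
set_option linter.unusedSectionVars false
set_option linter.unusedSimpArgs false
set_option linter.unusedVariables false

namespace Cfsg.Agent.Lib.Helper41.Dickson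

open Matrix
open Cfsg.Agent.Lib.Helper41

section general

variable {F : Type*} [Field F]

local notation "SL2" => Matrix.SpecialLinearGroup (Fin 2) F
local notation "PSL2" => Matrix.ProjectiveSpecialLinearGroup (Fin 2) F
local notation "M2" => Matrix (Fin 2) (Fin 2) F

structure SpanClosed (M : Subgroup PSL2) : Prop where
  span : ∀ (K : Subfield F) (_ : K ≠ ⊤)
    (htr : ∀ X : SL2, (QuotientGroup.mk X : PSL2) ∈ M → Matrix.trace (X : M2) ∈ K),
    spanSub K M htr = M
  norm : Subgroup.normalizer (M : Set PSL2) = M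

theorem card_dvd_of_closed (p : ℕ) [Fact p.Prime] [CharP F p] (M : Subgroup PSL2)
    (hM : SpanClosed M) (K : Subfield F) (hK : K ≠ ⊤)
    (htr : ∀ X : SL2, (QuotientGroup.mk X : PSL2) ∈ M → Matrix.trace (X : M2) ∈ K)
    (u : PSL2) (hu : u ∈ M) (hu1 : u ≠ 1) (hup : u ^ p = 1) : Nat.card K ∣ Nat.card M := by
  have hS : spanSub K M htr = M := hM.span K hK htr
  obtain ⟨U, rfl, hU⟩ := exists_lift_trace_two p u hup
  choose W hW using exists_oneParam U hU
  have hd := sl2_det U
  have hU' := hU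
  rw [Matrix.trace_fin_two] at hU'
  have hmul : ∀ s t : F, W (s + t) = W s * W t := by
    intro s t
    apply Subtype.ext
    rw [Matrix.SpecialLinearGroup.coe_mul, hW, hW, hW]
    have h2 := sl2_sq U
    rw [hU'] at h2
    simp only [add_mul, mul_add, Matrix.smul_mul, Matrix.mul_smul, one_mul, mul_one, h2, smul_sub,
      smul_smul, sub_smul, add_smul, one_smul, smul_add, mul_sub, sub_mul, mul_one, one_mul]
    ext i j
    fin_cases i <;> fin_cases j <;> simp <;> ring
  have hmem : ∀ t : K, (QuotientGroup.mk (W t) : PSL2) ∈ M := by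
    intro t
    rw [← hS]
    refine ⟨W t, rfl, ?_⟩
    rw [hW]
    exact Submodule.add_mem _
      (Submodule.smul_mem (liftSpan K M) (1 - t) (coe_mem_liftSpan K M 1 M.one_mem))
      (Submodule.smul_mem (liftSpan K M) t (coe_mem_liftSpan K M U hu))
  let φ : Multiplicative K →* M :=
    { toFun := fun t => ⟨QuotientGroup.mk (W (Multiplicative.toAdd t : K)), hmem _⟩
      map_one' := by
        apply Subtype.ext
        show (QuotientGroup.mk (W ((0 : K) : F)) : PSL2) = 1
        have : W ((0 : K) : F) = 1 := by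
          apply Subtype.ext
          rw [hW]; simp
        rw [this]; rfl
      map_mul' := by
        intro s t
        apply Subtype.ext
        show (QuotientGroup.mk (W ((Multiplicative.toAdd s + Multiplicative.toAdd t : K) : F)) : PSL2)
          = QuotientGroup.mk (W _) * QuotientGroup.mk (W _)
        rw [Subfield.coe_add, hmul]; rfl }
  have hinj : Function.Injective φ := by
    rw [injective_iff_map_eq_one]
    intro t ht
    have h1 : (QuotientGroup.mk (W (Multiplicative.toAdd t : K)) : PSL2) = QuotientGroup.mk 1 :=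
      congrArg Subtype.val ht
    set τ : F := ((Multiplicative.toAdd t : K) : F) with hτ
    have h2 : (W τ : M2) = 1 := by
      rcases (psl2_mk_eq_iff _ _).1 h1 with h | h
      · simpa using h
      · have h3 := congrArg Matrix.trace h
        rw [hW] at h3
        simp [Matrix.trace_fin_two] at h3
        have h4 : (2 : F) = 0 := by
          have h5 : (4 : F) = 0 := by linear_combination h3 - τ * hU'
          have h6 : (2 : F) * 2 = 0 := by linear_combination h5
          exact mul_self_eq_zero.1 h6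
        rw [h]
        ext i j
        fin_cases i <;> fin_cases j <;> simp
        · linear_combination (-1 : F) * h4
        · linear_combination (-1 : F) * h4
    have h3 : τ = 0 := by
      by_contra hne
      apply hu1
      have h4 : (U : M2) = 1 := by
        rw [hW] at h2
        have h5 : τ • (U : M2) = τ • (1 : M2) := by
          have : (1 - τ) • (1 : M2) + τ • (U : M2) = (1 - τ) • (1 : M2) + τ • (1 : M2) := by
            rw [h2, ← add_smul]; simp
          exact add_left_cancel this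
        have h6 := congrArg (fun A => τ⁻¹ • A) h5
        simpa [smul_smul, inv_mul_cancel₀ hne] using h6
      have : U = 1 := Subtype.ext h4
      rw [this]; rfl
    have h4 : (Multiplicative.toAdd t : K) = 0 := Subtype.ext h3
    exact h4
  have := Subgroup.card_dvd_of_injective φ hinj
  rwa [Nat.card_congr Multiplicative.toAdd] at this

theorem card_dvd_of_klein_closed (p : ℕ) [Fact p.Prime] [CharP F p] (h2 : (2 : F) ≠ 0) (M : Subgroup PSL2)
    (hM : SpanClosed M) (K : Subfield F) (hK : K ≠ ⊤)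
    (htr : ∀ X : SL2, (QuotientGroup.mk X : PSL2) ∈ M → Matrix.trace (X : M2) ∈ K)
    (s t : PSL2) (hs : s ∈ M) (ht : t ∈ M) (hs1 : s ≠ 1) (ht1 : t ≠ 1) (hst : s ≠ t)
    (hs2 : s ^ 2 = 1) (ht2 : t ^ 2 = 1) (hc : s * t = t * s) :
    Nat.card K ∣ Nat.card M := by
  have hS : spanSub K M htr = M := hM.span K hK htr
  obtain ⟨S, T, rfl, rfl, h3, h4, h5⟩ := klein_lifts s t hs1 ht1 hst hs2 ht2 hc
  obtain ⟨u, hu, hu1, hup⟩ := exists_unipotent_of_klein p h2 K M htr S T hs ht h3 h4 h5
  rw [hS] at hu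
  exact card_dvd_of_closed p M hM K hK htr u hu hu1 hup

theorem not_closed_of_squares [Fintype F] (h2 : (2 : F) ≠ 0) (h4 : 4 ≤ Fintype.card F)
    (M : Subgroup PSL2) (hM : SpanClosed M) (K : Subfield F) (hK : K ≠ ⊤)
    (htr : ∀ X : SL2, (QuotientGroup.mk X : PSL2) ∈ M → Matrix.trace (X : M2) ∈ K)
    (s : PSL2) (hs : s ∈ M) (hs1 : s ≠ 1) (hs2 : s ^ 2 = 1) (hsq : ∀ x ∈ K, IsSquare x) : False := by
  classical
  have hS : spanSub K M htr = M := hM.span K hK htr
  obtain ⟨S, rfl⟩ := QuotientGroup.mk_surjective s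
  have trS := trace_of_order_two S hs1 hs2
  have hSS : (S : M2) * (S : M2) = -1 := by rw [sl2_sq', trS]; simp
  haveI : Fintype K := Fintype.ofFinite _
  have h2K : (2 : K) ≠ 0 := by
    intro h
    apply h2
    have := congrArg K.subtype h
    rw [map_ofNat, map_zero] at this
    exact this
  have hKodd : Fintype.card K % 2 = 1 := by
    rcases Nat.even_or_odd (Fintype.card K) with he | ho
    · exfalso
      have h5 := (FiniteField.even_card_iff_char_two (F := K)).2 (Nat.even_iff.1 he)
      haveI : CharP K 2 := h5 ▸ ringChar.charP K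
      exact h2K (CharP.cast_eq_zero K 2)
    · exact Nat.odd_iff.1 ho
  obtain ⟨δ, hδ⟩ := FiniteField.exists_nonsquare (F := K) (by
    intro h5
    haveI : CharP K 2 := h5 ▸ ringChar.charP K
    exact h2K (CharP.cast_eq_zero K 2))
  obtain ⟨x₀, x₁, hx⟩ := quad_sum hKodd (1 : K) 0 1 0 (-δ) one_ne_zero one_ne_zero
  have hx' : (x₀ : F) ^ 2 + (x₁ : F) ^ 2 = δ := by
    have := congrArg Subtype.val hx
    simp at this
    linear_combination this
  obtain ⟨c, hc⟩ := hsq δ δ.2
  have hδ0 : (δ : F) ≠ 0 := by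
    intro h
    apply hδ
    have : δ = 0 := Subtype.ext h
    rw [this]
    exact IsSquare.zero
  have hc0 : c ≠ 0 := by
    rintro rfl
    apply hδ0
    rw [hc]; ring
  set a : M2 := (x₀ : F) • (1 : M2) + (x₁ : F) • (S : M2) with ha
  have hdeta : Matrix.det a = δ := by
    have hd := sl2_det S
    rw [Matrix.trace_fin_two] at trS
    rw [ha, Matrix.det_fin_two]
    simp
    linear_combination hx' + (x₁ : F) ^ 2 * hd + (x₀ : F) * (x₁ : F) * trS
  obtain ⟨X, hX⟩ : ∃ X : SL2, (X : M2) = c⁻¹ • a := by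
    refine ⟨⟨c⁻¹ • a, ?_⟩, rfl⟩
    rw [Matrix.det_smul, hdeta, hc]
    simp
    field_simp
  have haA : a ∈ liftSpan K M :=
    Submodule.add_mem _ (Submodule.smul_mem (liftSpan K M) x₀ (coe_mem_liftSpan K M 1 M.one_mem))
      (Submodule.smul_mem (liftSpan K M) x₁ (coe_mem_liftSpan K M S hs))
  have hcX : c • (X : M2) = a := by
    rw [hX, smul_smul, mul_inv_cancel₀ hc0, one_smul]
  have hnorm := mem_normalizer_spanSub K M htr X c hc0 (by rw [← hc]; exact δ.2)
    (by rw [hcX]; exact haA)
  have hle : spanSub K M htr ≤ M := le_of_eq hS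
  have hNM : Subgroup.normalizer (M : Set PSL2) = M := hM.norm
  rw [hS, hNM, ← hS] at hnorm
  obtain ⟨X', hX', hX'A⟩ := hnorm
  have hXA : (X : M2) ∈ liftSpan K M := by
    rcases (psl2_mk_eq_iff X' X).1 hX' with h | h
    · rw [← h]; exact hX'A
    · have : (X : M2) = -(X' : M2) := by rw [h, neg_neg]
      rw [this]; exact Submodule.neg_mem _ hX'A
  set a' : M2 := (x₀ : F) • (1 : M2) - (x₁ : F) • (S : M2) with ha'
  have ha'A : a' ∈ liftSpan K M :=
    Submodule.sub_mem _ (Submodule.smul_mem (liftSpan K M) x₀ (coe_mem_liftSpan K M 1 M.one_mem))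
      (Submodule.smul_mem (liftSpan K M) x₁ (coe_mem_liftSpan K M S hs))
  have hprod : (X : M2) * a' = c • (1 : M2) := by
    have h5 : a * a' = (δ : F) • (1 : M2) := by
      rw [ha, ha', ← hx']
      simp only [add_mul, mul_sub, smul_mul_assoc, mul_smul_comm, one_mul, mul_one, hSS]
      module
    rw [hX, smul_mul_assoc, h5, smul_smul, hc]
    congr 1
    field_simp
  have h6 := trace_mem_of_liftSpan K M htr (liftSpan_mul K M hXA ha'A)
  rw [hprod, Matrix.trace_smul] at h6
  simp [Matrix.trace_fin_two] at h6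
  have hcK : c ∈ K := by
    have h7 : c = (c * 2) * (2 : F)⁻¹ := by field_simp
    rw [h7]
    exact K.mul_mem h6 (K.inv_mem (by exact_mod_cast (natCast_mem K 2)))
  apply hδ
  exact ⟨⟨c, hcK⟩, Subtype.ext hc⟩

end general

section finite

variable {F : Type*} [Field F] [Fintype F]

local notation "SL2" => Matrix.SpecialLinearGroup (Fin 2) F
local notation "PSL2" => Matrix.ProjectiveSpecialLinearGroup (Fin 2) F
local notation "M2" => Matrix (Fin 2) (Fin 2) F

theorem prime_exponent_closed (p : ℕ) [Fact p.Prime] [CharP F p] (M : Subgroup PSL2) (hM : SpanClosed M)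
    (j m : ℕ) (hj : j ≠ 0) (hm : 2 ≤ m) (hq : Fintype.card F = (p ^ j) ^ m)
    (htr : ∀ X : SL2, (QuotientGroup.mk X : PSL2) ∈ M →
      Matrix.trace (X : M2) ^ p ^ j = Matrix.trace (X : M2))
    (u : PSL2) (hu : u ∈ M) (hu1 : u ≠ 1) (hup : u ^ p = 1)
    (hpart : ∀ n : ℕ, p ^ n ∣ Nat.card M → p ^ n ≤ p ^ j) : m.Prime := by
  by_contra hnp
  obtain ⟨a, ⟨b, hab⟩, ha1, ha2⟩ := Nat.exists_dvd_of_not_prime2 hm hnp
  have hp1 : 1 < p := (Fact.out : p.Prime).one_lt
  have hk1 : 1 < p ^ j := Nat.one_lt_pow hj hp1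
  have hja : j * a ≠ 0 := Nat.mul_ne_zero hj (by omega)
  have hpow : p ^ (j * a) = (p ^ j) ^ a := pow_mul p j a
  have hK : frobFix F p (j * a) ≠ ⊤ := by
    apply frobFix_ne_top p _ hja
    rw [hq, hpow]
    exact Nat.pow_lt_pow_right hk1 ha2
  have htr' : ∀ X : SL2, (QuotientGroup.mk X : PSL2) ∈ M →
      Matrix.trace (X : M2) ∈ frobFix F p (j * a) := by
    intro X hX
    rw [mem_frobFix, hpow]
    exact pow_pow_fix _ _ (htr X hX) a
  have h1 := card_dvd_of_closed p M hM _ hK htr' u hu hu1 hup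
  have h2 : p ^ (j * a) ≤ Nat.card (frobFix F p (j * a)) := by
    apply le_card_frobFix
    rw [hq, hpow, hab, pow_mul]
    have := Nat.sub_dvd_pow_sub_pow ((p ^ j) ^ a) 1 b
    simpa using this
  haveI : Fintype (frobFix F p (j * a)) := Fintype.ofFinite _
  haveI : CharP (frobFix F p (j * a)) p :=
    RingHom.charP (frobFix F p (j * a)).subtype (frobFix F p (j * a)).subtype.injective p
  obtain ⟨n, -, hn⟩ := FiniteField.card (frobFix F p (j * a)) p
  rw [Nat.card_eq_fintype_card, hn] at h1 h2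
  have h3 := hpart n h1
  have h4 : (p ^ j) ^ 1 < (p ^ j) ^ a := Nat.pow_lt_pow_right hk1 (by omega)
  rw [pow_one, ← hpow] at h4
  omega

theorem klein_frob_closed (p : ℕ) [Fact p.Prime] [CharP F p] (h2 : (2 : F) ≠ 0)
    (M : Subgroup PSL2) (hM : SpanClosed M) (i : ℕ) (hi0 : i ≠ 0) (hi : p ^ i < Fintype.card F)
    (htr : ∀ X : SL2, (QuotientGroup.mk X : PSL2) ∈ M →
      Matrix.trace (X : M2) ^ p ^ i = Matrix.trace (X : M2))
    (V : Subgroup PSL2) (hVM : V ≤ M) (hV : Nat.card V = 4) (hV2 : ∀ v ∈ V, v ^ 2 = 1) :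
    ∃ a : ℕ, a ≠ 0 ∧ p ^ a ∣ Nat.card M ∧ ∀ x : F, x ^ p ^ i = x → x ^ p ^ a = x := by
  obtain ⟨s, t, hs, ht, hs1, ht1, hst, hs2, ht2, hc⟩ := klein_pair V hV hV2
  have hK := frobFix_ne_top (F := F) p i hi0 hi
  have hdvd := card_dvd_of_klein_closed p h2 M hM (frobFix F p i) hK
    (fun X hX => (mem_frobFix p i _).2 (htr X hX)) s t (hVM hs) (hVM ht) hs1 ht1 hst hs2 ht2 hc
  haveI : Fintype (frobFix F p i) := Fintype.ofFinite _
  haveI : CharP (frobFix F p i) p :=
    RingHom.charP (frobFix F p i).subtype (frobFix F p i).subtype.injective p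
  obtain ⟨a, -, ha⟩ := FiniteField.card (frobFix F p i) p
  refine ⟨a, a.pos.ne', ?_, ?_⟩
  · rw [← ha, ← Nat.card_eq_fintype_card]; exact hdvd
  · intro x hx
    have h3 := FiniteField.pow_card (⟨x, (mem_frobFix p i x).2 hx⟩ : frobFix F p i)
    rw [ha] at h3
    exact congrArg Subtype.val h3

theorem psl_sub_closed (p : ℕ) [Fact p.Prime] [CharP F p] (hodd : Odd (Fintype.card F))
    (h5 : 5 ≤ Fintype.card F) (M : Subgroup PSL2) (hM : SpanClosed M) (hMtop : M ≠ ⊤) (K : Subfield F) (m : ℕ)
    (hm : 1 ≤ m) (hqm : Fintype.card F = Nat.card K ^ m)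
    (hordM : ∀ g ∈ M, ∃ y : Matrix.ProjectiveSpecialLinearGroup (Fin 2) K, orderOf g = orderOf y)
    (hc : 2 * Nat.card M = Nat.card K * (Nat.card K ^ 2 - 1)) :
    m.Prime ∧ Odd m := by
  classical
  haveI : Fact (Nat.Prime 2) := ⟨by norm_num⟩
  have hp : p.Prime := Fact.out
  have hp2 := char_ne_two_of_odd p hodd
  have h2 := two_ne_zero_of_odd hodd
  have hG := two_mul_card_psl hodd
  haveI : Fintype K := Fintype.ofFinite _
  haveI : CharP K p := RingHom.charP K.subtype K.subtype.injective p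
  obtain ⟨j, -, hj⟩ := FiniteField.card K p
  have hKc : Nat.card K = p ^ (j : ℕ) := by rw [Nat.card_eq_fintype_card, hj]
  rw [hKc] at hqm hc
  have hpodd : Odd p := hp.odd_of_ne_two hp2
  have hkodd : Odd (p ^ (j : ℕ)) := hpodd.pow
  have hk3 : 3 ≤ p ^ (j : ℕ) := by
    have h1 : p ≤ p ^ (j : ℕ) := Nat.le_self_pow j.pos.ne' p
    have h3 : 2 ≤ p := hp.two_le
    omega
  have hgK : Nat.gcd 2 (Fintype.card K - 1) = 2 := by
    rw [hj]
    obtain ⟨a, ha⟩ := hkodd
    rw [ha]
    simp
  have hm2 : 2 ≤ m := by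
    by_contra hcon
    have hm1 : m = 1 := by omega
    subst hm1
    rw [pow_one] at hqm
    apply hMtop
    apply Subgroup.eq_top_of_card_eq
    rw [hqm, ← hc] at hG
    omega
  have hcop2 : Nat.Coprime p 2 := (Nat.coprime_primes hp Nat.prime_two).2 hp2
  have hpM : p ∣ Nat.card M := by
    have h1 : p ∣ 2 * Nat.card M := by
      rw [hc]
      exact Dvd.dvd.mul_right (dvd_pow_self p j.pos.ne') _
    exact hcop2.dvd_of_dvd_mul_left h1
  obtain ⟨u, hu⟩ := exists_prime_orderOf_dvd_card' p hpM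
  have htr : ∀ X : SL2, (QuotientGroup.mk X : PSL2) ∈ M →
      Matrix.trace (X : M2) ^ p ^ (j : ℕ) = Matrix.trace (X : M2) := by
    intro X hX
    apply trace_fix_odd p hp2
    obtain ⟨y, hy⟩ := hordM _ hX
    have h1 := psl2_orderOf_dvd p y
    rw [← hy, hgK, hj] at h1
    obtain ⟨a, ha⟩ := hkodd
    rcases h1 with h1 | h1 | h1
    · exact Or.inl h1
    · exact Or.inr (Or.inl (Nat.mul_dvd_of_dvd_div ⟨a, by omega⟩ h1))
    · exact Or.inr (Or.inr (Nat.mul_dvd_of_dvd_div ⟨a + 1, by omega⟩ h1))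
  have hprime := prime_exponent_closed p M hM j m j.pos.ne' hm2 hqm htr (u : PSL2) u.2
    (by
      intro h
      have : u = 1 := Subtype.ext h
      rw [this, orderOf_one] at hu
      exact hp.one_lt.ne hu)
    (by
      have := pow_orderOf_eq_one u
      rw [hu] at this
      exact congrArg Subtype.val this)
    (by
      intro a ha
      have h1 : p ^ a ∣ 1 * (p ^ (j : ℕ) * ((p ^ (j : ℕ)) ^ 2 - 1)) := by
        rw [one_mul, ← hc]
        exact Dvd.dvd.mul_left ha 2
      exact ppart_le hp j.pos.ne' h1 (Nat.coprime_one_right p))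
  have hmodd : Odd m := by
    rcases hprime.eq_two_or_odd' with h | h
    · exfalso
      subst h
      have h2M : 2 ∣ Nat.card M := by
        obtain ⟨a, ha⟩ := hkodd
        rw [ha] at hc
        have h3 : (2 * a + 1) ^ 2 - 1 = 4 * (a ^ 2 + a) := Nat.sub_eq_of_eq_add (by ring)
        rw [h3] at hc
        exact ⟨(2 * a + 1) * (a ^ 2 + a), by nlinarith⟩
      obtain ⟨s, hs⟩ := exists_prime_orderOf_dvd_card' 2 h2M
      refine not_closed_of_squares h2 (by omega) M hM (frobFix F p j)
        (frobFix_ne_top p j j.pos.ne' (by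
          rw [hqm]
          nlinarith))
        (fun X hX => (mem_frobFix p j _).2 (htr X hX)) (s : PSL2) s.2 ?_ ?_ ?_
      · intro h
        have : s = 1 := Subtype.ext h
        rw [this, orderOf_one] at hs
        omega
      · have := pow_orderOf_eq_one s
        rw [hs] at this
        exact congrArg Subtype.val this
      · intro x hx
        rw [mem_frobFix] at hx
        exact isSquare_of_pow_eq h2 _ hkodd hqm x hx
    · exact h
  exact ⟨hprime, hmodd⟩

end finite

end Cfsg.Agent.Lib.Helper41.Dickson
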