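import Cfsg.Agent.Lib.Helper41.Dickson.MaxOddDih

/-!
# Maximal subgroups of a group with a simple normal subgroup of index two
-/

set_option autoImplicit false
set_option linter.style.haveILetI false
set_option linter.unusedSectionVars false

namespace Cfsg.Agent.Lib.Helper41.Dickson

/-- a maximal subgroup is not a prime power order subgroup of non-maximal prime power order -/
theorem coatom_not_small_pgroup {G : Type*} [Group G] [Finite G] (r a : ℕ) [Fact r.Prime]
    (M : Subgroup G) (hM : IsCoatom M) (hMc : Nat.card M = r ^ a)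
    (hdvd : r ^ (a + 1) ∣ Nat.card G) (hne : Nat.card G ≠ r ^ (a + 1)) : False := by
  have hr : r.Prime := Fact.out
  obtain ⟨K, hK, hMK⟩ := Sylow.exists_subgroup_card_pow_succ hdvd hMc
  rcases hM.le_iff.1 hMK with h | h
  · apply hne
    rw [← hK, h, Subgroup.card_top]
  · rw [h, hMc] at hK
    have := Nat.pow_lt_pow_right hr.one_lt (Nat.lt_succ_self a)
    rw [Nat.succ_eq_add_one] at this
    omega

section

variable {G S : Type*} [Group G] [Group S] [IsSimpleGroup S] (τ : S →* G)
  (hτ : Function.Injective τ) (hidx : τ.range.index = 2) (M : Subgroup G) (hM : IsCoatom M)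
  (hML : ¬ τ.range ≤ M)

include hidx hM hML in
theorem card_eq_two_mul_comap [Finite G] (hτ : Function.Injective τ) :
    Nat.card M = 2 * Nat.card (M.comap τ) := by
  haveI : τ.range.Normal := Subgroup.normal_of_index_eq_two hidx
  have h1 : τ.range.relIndex M ∣ 2 := by
    rw [← hidx]; exact Subgroup.relIndex_dvd_index_of_normal _ _
  have h2 : τ.range.relIndex M ≠ 1 := by
    intro h
    have h3 : M ≤ τ.range := Subgroup.relIndex_eq_one.1 h
    rcases hM.le_iff.1 h3 with h4 | h4
    · rw [h4, Subgroup.index_top] at hidx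
      omega
    · exact hML (le_of_eq h4)
  have h3 : τ.range.relIndex M = 2 := by
    rcases (Nat.dvd_prime Nat.prime_two).1 h1 with h | h
    · exact absurd h h2
    · exact h
  have h4 : Nat.card (M.comap τ) = Nat.card (τ.range ⊓ M : Subgroup G) := by
    have h5 : (M.comap τ).map τ = τ.range ⊓ M := by
      rw [Subgroup.map_comap_eq]
    rw [← h5]
    exact Nat.card_congr ((M.comap τ).equivMapOfInjective τ hτ).toEquiv
  have h6 := (τ.range.subgroupOf M).index_mul_card
  have h7 : Nat.card (τ.range.subgroupOf M) = Nat.card (τ.range ⊓ M : Subgroup G) := by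
    rw [← Subgroup.inf_subgroupOf_right]
    exact Nat.card_congr (Subgroup.subgroupOfEquivOfLe inf_le_right).toEquiv
  rw [h7, ← h4] at h6
  rw [← h6]
  congr 1

include hτ hM in
/-- **the normalizer principle** -/
theorem normalizer_eq_comap (D : Subgroup S) (hD1 : D ≠ ⊥) (hD2 : D ≠ ⊤)
    (hn : M ≤ Subgroup.normalizer ((D.map τ : Subgroup G) : Set G)) :
    Subgroup.normalizer (D : Set S) = M.comap τ := by
  have hmem : ∀ x : S, τ x ∈ D.map τ ↔ x ∈ D := by
    intro x
    constructor
    · rintro ⟨y, hy, hxy⟩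
      rw [← hτ hxy]; exact hy
    · intro hx
      exact ⟨x, hx, rfl⟩
  have hN : Subgroup.normalizer ((D.map τ : Subgroup G) : Set G) = M := by
    rcases hM.le_iff.1 hn with h | h
    · exfalso
      haveI : (D.map τ).Normal := Subgroup.normalizer_eq_top_iff.1 h
      have hDn : D.Normal := by
        constructor
        intro x hx g
        rw [← hmem, map_mul, map_mul, map_inv]
        exact Subgroup.Normal.conj_mem inferInstance _ ((hmem x).2 hx) _
      rcases IsSimpleGroup.eq_bot_or_eq_top_of_normal D hDn with h1 | h1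
      · exact hD1 h1
      · exact hD2 h1
    · exact h
  ext x
  rw [Subgroup.mem_comap, ← hN, Subgroup.mem_normalizer_iff, Subgroup.mem_normalizer_iff]
  constructor
  · intro hx y
    constructor
    · rintro ⟨z, hz, rfl⟩
      rw [← map_inv, ← map_mul, ← map_mul, hmem]
      exact (hx z).1 hz
    · intro hy
      -- `y = τ x⁻¹ * (τ x * y * τ x⁻¹) * τ x`
      obtain ⟨w, hw, hwy⟩ := hy
      have h1 : y = τ (x⁻¹ * w * x) := by
        rw [map_mul, map_mul, map_inv, hwy]; group
      rw [h1, hmem]
      have h2 := (hx (x⁻¹ * w * x)).2 (by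
        have : x * (x⁻¹ * w * x) * x⁻¹ = w := by group
        rw [this]; exact hw)
      exact h2
  · intro hx y
    rw [← hmem y, ← hmem (x * y * x⁻¹), map_mul, map_mul, map_inv]
    exact hx (τ y)

include hML in
theorem comap_ne_top : M.comap τ ≠ ⊤ := by
  intro h
  apply hML
  rintro _ ⟨x, rfl⟩
  have : x ∈ M.comap τ := by rw [h]; trivial
  exact this

include hidx in
theorem le_normalizer_map_comap :
    M ≤ Subgroup.normalizer ((((M.comap τ).map τ : Subgroup G)) : Set G) := by
  haveI : τ.range.Normal := Subgroup.normal_of_index_eq_two hidx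
  apply le_normalizer_of_conj_mem
  rintro g hg _ ⟨x, hx, rfl⟩
  have hxr : τ x ∈ τ.range := ⟨x, rfl⟩
  obtain ⟨y, hy⟩ : g * τ x * g⁻¹ ∈ τ.range :=
    Subgroup.Normal.conj_mem inferInstance _ hxr _
  refine ⟨y, ?_, hy⟩
  show τ y ∈ M
  rw [hy]
  exact M.mul_mem (M.mul_mem hg hx) (M.inv_mem hg)

include hτ hidx hM hML in
theorem normalizer_comap_eq (h1 : M.comap τ ≠ ⊥) :
    Subgroup.normalizer ((M.comap τ : Subgroup S) : Set S) = M.comap τ :=
  normalizer_eq_comap τ hτ M hM _ h1 (comap_ne_top τ M hML) (le_normalizer_map_comap τ hidx M)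

include hτ hM in
theorem eq_comap_of_normalized (h1 : M.comap τ ≠ ⊥) (S' : Subgroup S) (hle : M.comap τ ≤ S')
    (htop : S' ≠ ⊤) (hn : M ≤ Subgroup.normalizer ((S'.map τ : Subgroup G) : Set G)) :
    S' = M.comap τ := by
  have hb : S' ≠ ⊥ := by
    rintro rfl
    exact h1 (le_bot_iff.1 hle)
  have := normalizer_eq_comap τ hτ M hM S' hb htop hn
  exact le_antisymm (by rw [← this]; exact Subgroup.le_normalizer) hle

end

end Cfsg.Agent.Lib.Helper41.Dickson
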