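import Cfsg.Agent.Lib.Helper41.Dickson.MaxOddS4
import Cfsg.Agent.Lib.Helper41.Dickson.Descent
import Cfsg.Agent.S0799

/-!
# Maximal subgroups of `PSL₂(q)`, `q` odd: the subfield cases
-/

set_option autoImplicit false
set_option linter.style.haveILetI false
set_option linter.unusedSectionVars false
set_option linter.unusedSimpArgs false

namespace Cfsg.Agent.Lib.Helper41.Dickson

open Cfsg.Agent.Lib.Helper41

theorem ppart_le {p j a c : ℕ} (hp : p.Prime) (hj : j ≠ 0)
    (h : p ^ a ∣ c * (p ^ j * ((p ^ j) ^ 2 - 1))) (hc : Nat.Coprime p c) : p ^ a ≤ p ^ j := by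
  have hcop : Nat.Coprime (p ^ a) ((p ^ j) ^ 2 - 1) := by
    apply Nat.Coprime.pow_left
    rw [Nat.Prime.coprime_iff_not_dvd hp]
    intro h5
    have h3 : p ∣ (p ^ j) ^ 2 := Dvd.dvd.pow (dvd_pow_self p hj) (by norm_num)
    have h4 : 0 < (p ^ j) ^ 2 := by have := hp.pos; positivity
    have h6 : p ∣ 1 := by
      have := (Nat.dvd_sub h3 h5)
      rwa [Nat.sub_sub_self h4] at this
    exact hp.one_lt.ne' (Nat.dvd_one.1 h6)
  have h1 : p ^ a ∣ p ^ j * ((p ^ j) ^ 2 - 1) :=
    (Nat.Coprime.pow_left a hc).dvd_of_dvd_mul_left h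
  exact Nat.le_of_dvd (by have := hp.pos; positivity) (hcop.dvd_of_dvd_mul_right h1)

theorem geom_parity (x : ℕ) (hx : x % 2 = 1) (m : ℕ) :
    ∃ S : ℕ, x ^ m = (x - 1) * S + 1 ∧ S % 2 = m % 2 := by
  induction m with
  | zero => exact ⟨0, by simp, rfl⟩
  | succ m ih =>
    obtain ⟨S, h1, h2⟩ := ih
    refine ⟨x * S + 1, ?_, ?_⟩
    · obtain ⟨y, rfl⟩ : ∃ y, x = y + 1 := ⟨x - 1, by omega⟩
      rw [pow_succ, h1]
      simp only [Nat.add_sub_cancel]
      ring
    · rw [Nat.add_mod, Nat.mul_mod, hx, h2]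
      omega

variable {F : Type*} [Field F] [Fintype F]

local notation "SL2" => Matrix.SpecialLinearGroup (Fin 2) F
local notation "PSL2" => Matrix.ProjectiveSpecialLinearGroup (Fin 2) F
local notation "M2" => Matrix (Fin 2) (Fin 2) F

theorem psl_sub_case (p : ℕ) [Fact p.Prime] [CharP F p] (hodd : Odd (Fintype.card F))
    (h5 : 5 ≤ Fintype.card F) (M : Subgroup PSL2) (hM : IsCoatom M) (K : Subfield F) (m : ℕ)
    (hm : 1 ≤ m) (hqm : Fintype.card F = Nat.card K ^ m)
    (e : M ≃* Matrix.ProjectiveSpecialLinearGroup (Fin 2) K)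
    (hc : 2 * Nat.card M = Nat.card K * (Nat.card K ^ 2 - 1)) :
    ∃ (F₀ : Type) (_ : Field F₀) (_ : Fintype F₀) (r : ℕ), r.Prime ∧ Odd r ∧
        Fintype.card F = Fintype.card F₀ ^ r ∧
        Nonempty (M ≃* Matrix.ProjectiveSpecialLinearGroup (Fin 2) F₀) := by
  classical
  haveI : Fact (Nat.Prime 2) := ⟨by norm_num⟩
  have hp : p.Prime := Fact.out
  have hp2 := char_ne_two_of_odd p hodd
  have h2 := two_ne_zero_of_odd hodd
  have hG := two_mul_card_psl hodd
  haveI : Fintype K := Fintype.ofFinite _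
  haveI : CharP K p := RingHom.charP K.subtype K.subtype.injective p
  obtain ⟨j, -, hj⟩ := FiniteField.card K p
  have hKc : Nat.card K = p ^ (j : ℕ) := by rw [Nat.card_eq_fintype_card, hj]
  rw [hKc] at hqm hc
  have hpodd : Odd p := hp.odd_of_ne_two hp2
  have hkodd : Odd (p ^ (j : ℕ)) := hpodd.pow
  have hk3 : 3 ≤ p ^ (j : ℕ) := by
    have h1 : p ≤ p ^ (j : ℕ) := Nat.le_self_pow j.pos.ne' p
    have h3 : 2 ≤ p := hp.two_le
    omega
  have hgK : Nat.gcd 2 (Fintype.card K - 1) = 2 := by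
    rw [hj]
    obtain ⟨a, ha⟩ := hkodd
    rw [ha]
    simp
  have hm2 : 2 ≤ m := by
    by_contra hcon
    have hm1 : m = 1 := by omega
    subst hm1
    rw [pow_one] at hqm
    apply hM.1
    apply Subgroup.eq_top_of_card_eq
    rw [hqm, ← hc] at hG
    omega
  have hcop2 : Nat.Coprime p 2 := (Nat.coprime_primes hp Nat.prime_two).2 hp2
  have hpM : p ∣ Nat.card M := by
    have h1 : p ∣ 2 * Nat.card M := by
      rw [hc]
      exact Dvd.dvd.mul_right (dvd_pow_self p j.pos.ne') _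
    exact hcop2.dvd_of_dvd_mul_left h1
  obtain ⟨u, hu⟩ := exists_prime_orderOf_dvd_card' p hpM
  have htr : ∀ X : SL2, (QuotientGroup.mk X : PSL2) ∈ M →
      Matrix.trace (X : M2) ^ p ^ (j : ℕ) = Matrix.trace (X : M2) := by
    intro X hX
    apply trace_fix_odd p hp2
    have h1 := psl2_orderOf_dvd p (e ⟨_, hX⟩)
    rw [e.orderOf_eq, Subgroup.orderOf_mk, hgK, hj] at h1
    obtain ⟨a, ha⟩ := hkodd
    rcases h1 with h1 | h1 | h1
    · exact Or.inl h1
    · exact Or.inr (Or.inl (Nat.mul_dvd_of_dvd_div ⟨a, by omega⟩ h1))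
    · exact Or.inr (Or.inr (Nat.mul_dvd_of_dvd_div ⟨a + 1, by omega⟩ h1))
  have hprime := prime_exponent p M hM j m j.pos.ne' hm2 hqm htr (u : PSL2) u.2
    (by
      intro h
      have : u = 1 := Subtype.ext h
      rw [this, orderOf_one] at hu
      exact hp.one_lt.ne hu)
    (by
      have := pow_orderOf_eq_one u
      rw [hu] at this
      exact congrArg Subtype.val this)
    (by
      intro a ha
      have h1 : p ^ a ∣ 1 * (p ^ (j : ℕ) * ((p ^ (j : ℕ)) ^ 2 - 1)) := by
        rw [one_mul, ← hc]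
        exact Dvd.dvd.mul_left ha 2
      exact ppart_le hp j.pos.ne' h1 (Nat.coprime_one_right p))
  have hmodd : Odd m := by
    rcases hprime.eq_two_or_odd' with h | h
    · exfalso
      subst h
      have h2M : 2 ∣ Nat.card M := by
        obtain ⟨a, ha⟩ := hkodd
        rw [ha] at hc
        have h3 : (2 * a + 1) ^ 2 - 1 = 4 * (a ^ 2 + a) := Nat.sub_eq_of_eq_add (by ring)
        rw [h3] at hc
        exact ⟨(2 * a + 1) * (a ^ 2 + a), by nlinarith⟩
      obtain ⟨s, hs⟩ := exists_prime_orderOf_dvd_card' 2 h2M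
      refine not_isCoatom_of_squares h2 (by omega) M hM (frobFix F p j)
        (frobFix_ne_top p j j.pos.ne' (by
          rw [hqm]
          nlinarith))
        (fun X hX => (mem_frobFix p j _).2 (htr X hX)) (s : PSL2) s.2 ?_ ?_ ?_
      · intro h
        have : s = 1 := Subtype.ext h
        rw [this, orderOf_one] at hs
        omega
      · have := pow_orderOf_eq_one s
        rw [hs] at this
        exact congrArg Subtype.val this
      · intro x hx
        rw [mem_frobFix] at hx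
        exact isSquare_of_pow_eq h2 _ hkodd hqm x hx
    · exact h
  obtain ⟨K', i1, i2, hc', ⟨eK⟩⟩ := Cfsg.Agent.S0799.exists_small_model (K := K)
  obtain ⟨e2⟩ := pslCongr eK
  exact ⟨K', i1, i2, m, hprime, hmodd, by rw [hc', hKc, hqm], ⟨e.trans e2⟩⟩

theorem pgl_sub_case (p : ℕ) [Fact p.Prime] [CharP F p] (hodd : Odd (Fintype.card F))
    (M : Subgroup PSL2) (hM : IsCoatom M) (K : Subfield F) (m : ℕ)
    (hm : 1 ≤ m) (hqm : Fintype.card F = Nat.card K ^ m)
    (e : M ≃* Matrix.ProjGenLinGroup (Fin 2) K)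
    (hc : Nat.card M = Nat.card K * (Nat.card K ^ 2 - 1)) :
    ∃ (F₀ : Type) (_ : Field F₀) (_ : Fintype F₀), Fintype.card F = Fintype.card F₀ ^ 2 ∧
        Nonempty (M ≃* Matrix.ProjGenLinGroup (Fin 2) F₀) := by
  classical
  have hp : p.Prime := Fact.out
  have hp2 := char_ne_two_of_odd p hodd
  have hG := two_mul_card_psl hodd
  haveI : Fintype K := Fintype.ofFinite _
  haveI : CharP K p := RingHom.charP K.subtype K.subtype.injective p
  obtain ⟨j, -, hj⟩ := FiniteField.card K p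
  have hKc : Nat.card K = p ^ (j : ℕ) := by rw [Nat.card_eq_fintype_card, hj]
  rw [hKc] at hqm hc
  have hpodd : Odd p := hp.odd_of_ne_two hp2
  have hkodd : Odd (p ^ (j : ℕ)) := hpodd.pow
  have hk3 : 3 ≤ p ^ (j : ℕ) := by
    have h1 : p ≤ p ^ (j : ℕ) := Nat.le_self_pow j.pos.ne' p
    have h3 : 2 ≤ p := hp.two_le
    omega
  set k := p ^ (j : ℕ) with hk
  have hm2 : m = 2 := by
    have hdvd : 2 * (k * (k ^ 2 - 1)) ∣ k ^ m * ((k ^ m) ^ 2 - 1) := by
      rw [← hc, ← hqm, ← hG]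
      exact Nat.mul_dvd_mul_left 2 (Subgroup.card_subgroup_dvd_card M)
    have hk2odd : k ^ 2 % 2 = 1 := Nat.odd_iff.1 hkodd.pow
    obtain ⟨S, hS, hSpar⟩ := geom_parity (k ^ 2) hk2odd m
    have hx1 : 0 < k ^ 2 - 1 := by
      have : 3 ^ 2 ≤ k ^ 2 := Nat.pow_le_pow_left hk3 2
      omega
    have hmeven : m % 2 = 0 := by
      by_contra hcon
      have hSodd : S % 2 = 1 := by omega
      have h1 : (k ^ m) ^ 2 - 1 = (k ^ 2 - 1) * S := by
        rw [← pow_mul, mul_comm m 2, pow_mul, hS]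
        simp
      rw [h1] at hdvd
      have h3 : (k ^ 2 - 1) * (2 * k) ∣ (k ^ 2 - 1) * (k ^ m * S) := by
        have e1 : (k ^ 2 - 1) * (2 * k) = 2 * (k * (k ^ 2 - 1)) := by ring
        have e2 : (k ^ 2 - 1) * (k ^ m * S) = k ^ m * ((k ^ 2 - 1) * S) := by ring
        rw [e1, e2]; exact hdvd
      have h4 : 2 * k ∣ k ^ m * S := Nat.dvd_of_mul_dvd_mul_left hx1 h3
      have h5 : 2 ∣ k ^ m * S := (Dvd.intro _ rfl).trans h4
      have h6 : (k ^ m * S) % 2 = 1 := by
        rw [Nat.mul_mod, Nat.odd_iff.1 hkodd.pow, hSodd]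
      omega
    obtain ⟨m', rfl⟩ : ∃ m', m = 2 * m' := ⟨m / 2, by omega⟩
    by_contra hcon
    have hm'2 : 2 ≤ m' := by omega
    have hq' : Fintype.card F = (p ^ (2 * (j : ℕ))) ^ m' := by
      rw [hqm, hk, ← pow_mul, ← pow_mul]
      congr 1
      ring
    have hkk : p ^ (2 * (j : ℕ)) = k ^ 2 := by rw [hk, ← pow_mul, mul_comm]
    have hlt : p ^ (2 * (j : ℕ)) < Fintype.card F := by
      rw [hq']
      have h1 : 1 < p ^ (2 * (j : ℕ)) := Nat.one_lt_pow (by have := j.pos; omega) hp.one_lt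
      calc p ^ (2 * (j : ℕ)) = (p ^ (2 * (j : ℕ))) ^ 1 := (pow_one _).symm
        _ < (p ^ (2 * (j : ℕ))) ^ m' := Nat.pow_lt_pow_right h1 (by omega)
    have hK' := frobFix_ne_top (F := F) p (2 * (j : ℕ)) (by have := j.pos; omega) hlt
    have htr : ∀ X : SL2, (QuotientGroup.mk X : PSL2) ∈ M →
        Matrix.trace (X : M2) ∈ frobFix F p (2 * (j : ℕ)) := by
      intro X hX
      rw [mem_frobFix]
      apply trace_fix_odd p hp2
      have h1 := pgl2_orderOf_dvd p (e ⟨_, hX⟩)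
      rw [e.orderOf_eq, Subgroup.orderOf_mk, hj] at h1
      have hfac : p ^ (2 * (j : ℕ)) - 1 = (k - 1) * (k + 1) := by
        rw [hkk]
        obtain ⟨y, hy⟩ : ∃ y, k = y + 1 := ⟨k - 1, by omega⟩
        rw [hy]
        simp only [Nat.add_sub_cancel]
        exact Nat.sub_eq_of_eq_add (by ring)
      obtain ⟨a, ha⟩ := hkodd
      rcases h1 with h1 | h1 | h1
      · exact Or.inl h1
      · right; left
        rw [hfac, mul_comm 2]
        exact Nat.mul_dvd_mul h1 ⟨a + 1, by omega⟩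
      · right; left
        rw [hfac]
        exact Nat.mul_dvd_mul ⟨a, by omega⟩ h1
    have hpM : p ∣ Nat.card M := by
      rw [hc]
      exact Dvd.dvd.mul_right (dvd_pow_self p j.pos.ne') _
    obtain ⟨u, hu⟩ := exists_prime_orderOf_dvd_card' p hpM
    have hdvdK := card_dvd_of_isCoatom p M hM _ hK' htr (u : PSL2) u.2
      (by
        intro h
        have : u = 1 := Subtype.ext h
        rw [this, orderOf_one] at hu
        exact hp.one_lt.ne hu)
      (by
        have := pow_orderOf_eq_one u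
        rw [hu] at this
        exact congrArg Subtype.val this)
    haveI : Fintype (frobFix F p (2 * (j : ℕ))) := Fintype.ofFinite _
    haveI : CharP (frobFix F p (2 * (j : ℕ))) p :=
      RingHom.charP (frobFix F p (2 * (j : ℕ))).subtype
        (frobFix F p (2 * (j : ℕ))).subtype.injective p
    obtain ⟨a, -, ha⟩ := FiniteField.card (frobFix F p (2 * (j : ℕ))) p
    have hle := le_card_frobFix (F := F) p (2 * (j : ℕ)) (by
      rw [hq']
      have := Nat.sub_dvd_pow_sub_pow (p ^ (2 * (j : ℕ))) 1 m'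
      rwa [one_pow] at this)
    rw [Nat.card_eq_fintype_card, ha] at hdvdK hle
    rw [hc] at hdvdK
    have h7 : p ^ (a : ℕ) ≤ p ^ (j : ℕ) :=
      ppart_le hp j.pos.ne' (by rw [one_mul]; exact hdvdK) (Nat.coprime_one_right p)
    rw [hkk] at hle
    nlinarith
  subst hm2
  obtain ⟨K', i1, i2, hc', ⟨eK⟩⟩ := Cfsg.Agent.S0799.exists_small_model (K := K)
  exact ⟨K', i1, i2, by rw [hc', hKc, hqm], ⟨e.trans (pglCongr eK)⟩⟩

end Cfsg.Agent.Lib.Helper41.Dickson
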