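import Cfsg.Agent.Lib.Helper41.Dickson.IndexTwoMax
import Cfsg.Agent.Lib.Helper41.Dickson.Closed
import Cfsg.Agent.Lib.Helper41.Dickson.DicksonPGL

/-!
# Maximal subgroups of `PGL₂(q)`, `q` odd: glue with `PSL₂(q)`
-/

set_option autoImplicit false
set_option linter.style.haveILetI false
set_option linter.unusedSectionVars false
set_option linter.unusedSimpArgs false

namespace Cfsg.Agent.Lib.Helper41.Dickson

open Matrix
open Cfsg.Agent.Lib.Helper41

variable {F : Type*} [Field F]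

local notation "SL2" => Matrix.SpecialLinearGroup (Fin 2) F
local notation "PSL2" => Matrix.ProjectiveSpecialLinearGroup (Fin 2) F
local notation "PGL2" => Matrix.ProjGenLinGroup (Fin 2) F
local notation "M2" => Matrix (Fin 2) (Fin 2) F
local notation "τ" => (Matrix.ProjectiveSpecialLinearGroup.toPGL (n := Fin 2) (R := F))

theorem finite_pgl2 [Finite F] : Finite PGL2 :=
  Nat.finite_of_card_ne_zero (by
    rw [natCard_PGL2]
    have h1 : 2 ≤ Nat.card F := Finite.one_lt_card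
    have h3 : 2 ^ 2 ≤ Nat.card F ^ 2 := Nat.pow_le_pow_left h1 2
    have h4 : 0 < Nat.card F ^ 2 - 1 := by omega
    positivity)

/-- conjugation of `SL₂` by an element of `GL₂` -/
def conjSL (A : GL (Fin 2) F) (X : SL2) : SL2 :=
  ⟨(A : M2) * (X : M2) * ((A⁻¹ : GL (Fin 2) F) : M2), by
    rw [Matrix.det_units_conj]; exact X.2⟩

theorem coe_conjSL (A : GL (Fin 2) F) (X : SL2) :
    ((conjSL A X : SL2) : M2) = (A : M2) * (X : M2) * ((A⁻¹ : GL (Fin 2) F) : M2) := rfl

theorem toPGL_conjSL (A : GL (Fin 2) F) (X : SL2) :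
    τ (QuotientGroup.mk (conjSL A X)) =
      Matrix.ProjGenLinGroup.mk A * τ (QuotientGroup.mk X) * (Matrix.ProjGenLinGroup.mk A)⁻¹ := by
  have h1 : Matrix.SpecialLinearGroup.toGL (conjSL A X) =
      A * Matrix.SpecialLinearGroup.toGL X * A⁻¹ := by
    apply Units.ext
    rfl
  show Matrix.ProjGenLinGroup.mk (Matrix.SpecialLinearGroup.toGL (conjSL A X)) =
    Matrix.ProjGenLinGroup.mk A * Matrix.ProjGenLinGroup.mk (Matrix.SpecialLinearGroup.toGL X) *
      (Matrix.ProjGenLinGroup.mk A)⁻¹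
  rw [h1, map_mul, map_mul, map_inv]

theorem conj_mem_liftSpan (K : Subfield F) (M : Subgroup PGL2) (A : GL (Fin 2) F)
    (hA : Matrix.ProjGenLinGroup.mk A ∈ M) {Z : M2} (hZ : Z ∈ liftSpan K (M.comap τ)) :
    (A : M2) * Z * ((A⁻¹ : GL (Fin 2) F) : M2) ∈ liftSpan K (M.comap τ) := by
  unfold liftSpan at hZ
  induction hZ using Submodule.span_induction with
  | mem Z hZ =>
    obtain ⟨X, hX, rfl⟩ := hZ
    rw [← coe_conjSL]
    apply coe_mem_liftSpan
    rw [Subgroup.mem_comap, toPGL_conjSL]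
    exact M.mul_mem (M.mul_mem hA hX) (M.inv_mem hA)
  | zero => rw [mul_zero, zero_mul]; exact Submodule.zero_mem _
  | add B C _ _ hB hC => rw [mul_add, add_mul]; exact Submodule.add_mem _ hB hC
  | smul c B _ hB =>
    rw [Matrix.mul_smul, Matrix.smul_mul]; exact Submodule.smul_mem _ _ hB

theorem le_normalizer_map_spanSub (K : Subfield F) (M : Subgroup PGL2)
    (htr : ∀ X : SL2, (QuotientGroup.mk X : PSL2) ∈ M.comap τ → Matrix.trace (X : M2) ∈ K) :
    M ≤ Subgroup.normalizer ((((spanSub K (M.comap τ) htr).map τ : Subgroup PGL2)) : Set PGL2) := by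
  apply le_normalizer_of_conj_mem
  rintro g hg _ ⟨_, ⟨X, rfl, hX⟩, rfl⟩
  obtain ⟨A, rfl⟩ := Matrix.ProjGenLinGroup.mk_surjective g
  refine ⟨QuotientGroup.mk (conjSL A X), ⟨conjSL A X, rfl, ?_⟩, toPGL_conjSL A X⟩
  rw [coe_conjSL]
  exact conj_mem_liftSpan K M A hg hX

theorem eight_dvd_card_pgl [Fintype F] (hodd : Odd (Fintype.card F)) : 8 ∣ Nat.card PGL2 := by
  rw [natCard_PGL2, Nat.card_eq_fintype_card]
  obtain ⟨a, ha⟩ := hodd
  rw [ha]
  apply Dvd.dvd.mul_left
  have h3 : (2 * a + 1) ^ 2 - 1 = 4 * (a * (a + 1)) := Nat.sub_eq_of_eq_add (by ring)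
  rw [h3]
  obtain ⟨b, hb⟩ := Nat.even_mul_succ_self a
  rw [hb]
  exact ⟨b, by ring⟩

theorem card_pgl_gt [Fintype F] (h3 : 3 < Fintype.card F) : 24 < Nat.card PGL2 := by
  rw [natCard_PGL2, Nat.card_eq_fintype_card]
  have h1 : 4 ^ 2 ≤ Fintype.card F ^ 2 := Nat.pow_le_pow_left h3 2
  calc 24 < 4 * (4 ^ 2 - 1) := by norm_num
    _ ≤ Fintype.card F * (Fintype.card F ^ 2 - 1) :=
      Nat.mul_le_mul h3 (Nat.sub_le_sub_right h1 1)

/-- a maximal subgroup of `PGL₂(q)` is not a `2`-group of order at most `4` -/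
theorem card_ne_small [Fintype F] (hodd : Odd (Fintype.card F)) (h3 : 3 < Fintype.card F)
    (M : Subgroup PGL2) (hM : IsCoatom M) (a : ℕ) (ha : a ≤ 2) : Nat.card M ≠ 2 ^ a := by
  intro hc
  haveI := finite_pgl2 (F := F)
  haveI : Fact (Nat.Prime 2) := ⟨Nat.prime_two⟩
  have h8 := eight_dvd_card_pgl hodd
  have h24 := card_pgl_gt h3
  refine coatom_not_small_pgroup 2 a M hM hc ((pow_dvd_pow 2 (by omega : a + 1 ≤ 3)).trans h8) ?_
  intro h
  have : 2 ^ (a + 1) ≤ 2 ^ 3 := Nat.pow_le_pow_right (by norm_num) (by omega)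
  omega

theorem comap_ne_bot [Fintype F] (hodd : Odd (Fintype.card F)) (h3 : 3 < Fintype.card F)
    (M : Subgroup PGL2) (hM : IsCoatom M) (hML : ¬ (τ).range ≤ M) : M.comap τ ≠ ⊥ := by
  intro h
  haveI := finite_pgl2 (F := F)
  haveI : IsSimpleGroup PSL2 := Matrix.ProjectiveSpecialLinearGroup.rank_two_simple (by
    rw [Nat.card_eq_fintype_card]; omega)
  have hidx := index_range_toPGL F (by rw [Nat.card_eq_fintype_card]; exact hodd)
  have h1 := card_eq_two_mul_comap τ hidx M hM hML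
    Matrix.ProjectiveSpecialLinearGroup.toPGL_injective
  rw [h, Subgroup.card_bot] at h1
  exact card_ne_small hodd h3 M hM 1 (by norm_num) (by rw [h1]; norm_num)

theorem spanClosed_comap [Fintype F] (hodd : Odd (Fintype.card F)) (h3 : 3 < Fintype.card F)
    (M : Subgroup PGL2) (hM : IsCoatom M) (hML : ¬ (τ).range ≤ M) : SpanClosed (M.comap τ) := by
  haveI := finite_pgl2 (F := F)
  haveI : IsSimpleGroup PSL2 := Matrix.ProjectiveSpecialLinearGroup.rank_two_simple (by
    rw [Nat.card_eq_fintype_card]; omega)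
  have hidx := index_range_toPGL F (by rw [Nat.card_eq_fintype_card]; exact hodd)
  have hinj := Matrix.ProjectiveSpecialLinearGroup.toPGL_injective (n := Fin 2) (R := F)
  have hb := comap_ne_bot hodd h3 M hM hML
  constructor
  · intro K hK htr
    exact eq_comap_of_normalized τ hinj M hM hb _ (le_spanSub K _ htr) (spanSub_ne_top K hK _ htr)
      (le_normalizer_map_spanSub K M htr)
  · exact normalizer_comap_eq τ hinj hidx M hM hML hb

end Cfsg.Agent.Lib.Helper41.Dickson
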