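import Cfsg.Agent.Lib.Helper41.Dickson.PGLMax
import Cfsg.Agent.Lib.Helper41.Dickson.Packages

/-!
# Maximal subgroups of `PGL₂(q)`, `q` odd: the Borel and dihedral cases
-/

set_option autoImplicit false
set_option linter.style.haveILetI false
set_option linter.unusedSectionVars false
set_option linter.unusedSimpArgs false

namespace Cfsg.Agent.Lib.Helper41.Dickson

open Matrix
open Cfsg.Agent.Lib.Helper41

variable {F : Type*} [Field F] [Fintype F]

local notation "SL2" => Matrix.SpecialLinearGroup (Fin 2) F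
local notation "PSL2" => Matrix.ProjectiveSpecialLinearGroup (Fin 2) F
local notation "PGL2" => Matrix.ProjGenLinGroup (Fin 2) F
local notation "M2" => Matrix (Fin 2) (Fin 2) F
local notation "τ" => (Matrix.ProjectiveSpecialLinearGroup.toPGL (n := Fin 2) (R := F))

theorem mem_range_of_odd_pow (hodd : Odd (Fintype.card F)) (x : PGL2) (n : ℕ) (hn : Odd n)
    (hx : x ^ n = 1) : x ∈ (τ).range := by
  have hidx := index_range_toPGL F (by rw [Nat.card_eq_fintype_card]; exact hodd)
  obtain ⟨k, rfl⟩ := hn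
  have h1 : x = (x ^ 2) ^ (k + 1) := by
    rw [← pow_mul]
    have : 2 * (k + 1) = (2 * k + 1) + 1 := by ring
    rw [this, pow_succ, hx, one_mul]
  rw [h1]
  exact Subgroup.pow_mem _ (Subgroup.sq_mem_of_index_two hidx x) _

theorem gcd_two_of_odd' (hodd : Odd (Fintype.card F)) : Nat.gcd 2 (Fintype.card F - 1) = 2 := by
  obtain ⟨a, ha⟩ := hodd
  rw [ha]
  simp

theorem pgl_borel_case (p : ℕ) [Fact p.Prime] [CharP F p] (hodd : Odd (Fintype.card F))
    (h3 : 3 < Fintype.card F) (M : Subgroup PGL2) (hM : IsCoatom M) (hML : ¬ (τ).range ≤ M)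
    (P : Sylow p PGL2) (hP : M ≤ Subgroup.normalizer ((P : Subgroup PGL2) : Set PGL2)) :
    Nat.card M = Fintype.card F * (Fintype.card F - 1) := by
  classical
  haveI := finite_pgl2 (F := F)
  haveI : IsSimpleGroup PSL2 := Matrix.ProjectiveSpecialLinearGroup.rank_two_simple (by
    rw [Nat.card_eq_fintype_card]; omega)
  have hp : p.Prime := Fact.out
  have hp2 := char_ne_two_of_odd p hodd
  have hidx := index_range_toPGL F (by rw [Nat.card_eq_fintype_card]; exact hodd)
  have hinj := Matrix.ProjectiveSpecialLinearGroup.toPGL_injective (n := Fin 2) (R := F)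
  have hPle : (P : Subgroup PGL2) ≤ (τ).range := by
    intro x hx
    obtain ⟨k, hk⟩ := P.isPGroup' ⟨x, hx⟩
    have hk' : x ^ p ^ k = 1 := congrArg Subtype.val hk
    exact mem_range_of_odd_pow hodd x _ (hp.odd_of_ne_two hp2).pow hk'
  let D : Sylow p PSL2 := P.comapOfInjective τ hinj hPle
  have hD : (D : Subgroup PSL2) = (P : Subgroup PGL2).comap τ := Sylow.coe_comapOfInjective _ _ _ _
  have hDmap : (D : Subgroup PSL2).map τ = P := by
    rw [hD]; exact Subgroup.map_comap_eq_self hPle
  obtain ⟨hi, -, hc, -⟩ := borel_package p D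
  have hNtop : Subgroup.normalizer ((D : Subgroup PSL2) : Set PSL2) ≠ ⊤ := by
    intro h
    rw [h, Subgroup.index_top] at hi
    omega
  have hN := normalizer_eq_comap τ hinj M hM (D : Subgroup PSL2)
    (by
      intro h
      apply hNtop
      rw [h]
      exact Subgroup.normalizer_eq_top_iff.2 inferInstance)
    (by
      intro h
      apply hNtop
      rw [h]
      exact Subgroup.normalizer_eq_top_iff.2 inferInstance)
    (by rw [hDmap]; exact hP)
  rw [card_eq_two_mul_comap τ hidx M hM hML hinj, ← hN, ← hc, gcd_two_of_odd' hodd]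

/-- the order of a maximal subgroup normalizing a semisimple cyclic subgroup -/
theorem pgl_card_of_normal_cyclic (p : ℕ) [Fact p.Prime] [CharP F p]
    (hodd : Odd (Fintype.card F))
    (h3 : 3 < Fintype.card F) (M : Subgroup PGL2) (hM : IsCoatom M) (hML : ¬ (τ).range ≤ M)
    (c : PGL2) (hn : M ≤ Subgroup.normalizer ((Subgroup.zpowers c : Subgroup PGL2) : Set PGL2))
    (hc2 : c ^ 2 ≠ 1) (hcp : c ^ p ≠ 1) :
    Nat.card M = 2 * (Fintype.card F - 1) ∨ Nat.card M = 2 * (Fintype.card F + 1) := by
  classical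
  haveI := finite_pgl2 (F := F)
  haveI : IsSimpleGroup PSL2 := Matrix.ProjectiveSpecialLinearGroup.rank_two_simple (by
    rw [Nat.card_eq_fintype_card]; omega)
  have hp : p.Prime := Fact.out
  have hp2 := char_ne_two_of_odd p hodd
  have hidx := index_range_toPGL F (by rw [Nat.card_eq_fintype_card]; exact hodd)
  have hinj := Matrix.ProjectiveSpecialLinearGroup.toPGL_injective (n := Fin 2) (R := F)
  have hgcd := gcd_two_of_odd' hodd
  obtain ⟨c0, hc0⟩ : c ^ 2 ∈ (τ).range := Subgroup.sq_mem_of_index_two hidx c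
  have hc01 : c0 ≠ 1 := by
    rintro rfl
    rw [map_one] at hc0
    exact hc2 hc0.symm
  obtain ⟨n, -, hq⟩ := FiniteField.card F p
  have hpq : p ∣ Fintype.card F := by rw [hq]; exact dvd_pow_self p n.pos.ne'
  have hc0p : c0 ^ p ≠ 1 := by
    intro h
    have h1 : c ^ (2 * p) = 1 := by
      rw [pow_mul, ← hc0, ← map_pow, h, map_one]
    have h4 : orderOf c ∣ 2 * p := orderOf_dvd_of_pow_eq_one h1
    have hcop : Nat.Coprime (orderOf c) p := by
      rw [Nat.coprime_comm, Nat.Prime.coprime_iff_not_dvd hp]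
      intro hpo
      rcases pgl2_orderOf_dvd p c with h5 | h5 | h5
      · exact hcp (orderOf_dvd_iff_pow_eq_one.1 h5)
      · have h6 : p ∣ Fintype.card F - 1 := hpo.trans h5
        have h7 := Nat.dvd_sub hpq h6
        rw [Nat.sub_sub_self (by omega)] at h7
        exact hp.one_lt.ne' (Nat.dvd_one.1 h7)
      · have h6 : p ∣ Fintype.card F + 1 := hpo.trans h5
        have h7 := Nat.dvd_sub h6 hpq
        rw [Nat.add_sub_cancel_left] at h7
        exact hp.one_lt.ne' (Nat.dvd_one.1 h7)
    exact hc2 (orderOf_dvd_iff_pow_eq_one.1 (hcop.dvd_of_dvd_mul_right h4))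
  obtain ⟨N, k, t, hk, ⟨e⟩, htN, hto, hct, hcrit⟩ := torus_package p c0 hc0p
  rw [hgcd] at hk
  have hNc : Nat.card N = 2 * k := by rw [Nat.card_congr e.toEquiv, DihedralGroup.nat_card]
  have hDle : Subgroup.zpowers c0 ≤ Subgroup.zpowers t := by
    rw [Subgroup.zpowers_le]; exact hct
  have hG := two_mul_card_psl hodd
  have hDtop : Subgroup.zpowers c0 ≠ ⊤ := by
    intro h
    have hNtop : N = ⊤ := by
      rw [eq_top_iff]
      intro g _
      refine hcrit g c0 hct hc01 (hDle ?_)
      rw [h]; trivial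
    rw [hNtop, Subgroup.card_top] at hNc
    rw [hNc] at hG
    have h5 : 2 * (2 * k) ≤ 2 * (Fintype.card F + 1) := by omega
    have h6 : 4 ^ 2 ≤ Fintype.card F ^ 2 := Nat.pow_le_pow_left h3 2
    have h7 : Fintype.card F * 15 ≤ Fintype.card F * (Fintype.card F ^ 2 - 1) :=
      Nat.mul_le_mul_left _ (by omega)
    omega
  have hmap : (Subgroup.zpowers c0).map τ = Subgroup.zpowers (c ^ 2) := by
    rw [MonoidHom.map_zpowers, hc0]
  have hnorm : M ≤ Subgroup.normalizer
      ((((Subgroup.zpowers c0).map τ : Subgroup PGL2)) : Set PGL2) := by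
    rw [hmap]
    apply le_normalizer_of_conj_mem
    rintro g hg _ ⟨i, rfl⟩
    obtain ⟨j, hj⟩ := (Subgroup.mem_normalizer_iff.1 (hn hg) c).1 (Subgroup.mem_zpowers c)
    refine ⟨j * i, ?_⟩
    simp only
    simp only at hj
    rw [← MulAut.conj_apply, map_zpow, map_pow, MulAut.conj_apply, ← hj]
    rw [← zpow_natCast, ← zpow_natCast, ← _root_.zpow_mul, ← _root_.zpow_mul, ← _root_.zpow_mul]
    congr 1
    ring
  have hN0 := normalizer_eq_comap τ hinj M hM (Subgroup.zpowers c0)
    (by
      intro h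
      apply hc01
      have : c0 ∈ (⊥ : Subgroup PSL2) := by rw [← h]; exact Subgroup.mem_zpowers c0
      exact this) hDtop hnorm
  -- the normalizer of `⟨c0⟩` is `N`
  have hNN : Subgroup.normalizer ((Subgroup.zpowers c0 : Subgroup PSL2) : Set PSL2) = N := by
    apply le_antisymm
    · intro g hg
      exact hcrit g c0 hct hc01
        (hDle ((Subgroup.mem_normalizer_iff.1 hg c0).1 (Subgroup.mem_zpowers c0)))
    · have htle : Subgroup.zpowers t ≤ N := by rw [Subgroup.zpowers_le]; exact htN
      have hk0 : 0 < k := by omega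
      have hi2 : ((Subgroup.zpowers t).subgroupOf N).index = 2 := by
        have h5 := ((Subgroup.zpowers t).subgroupOf N).index_mul_card
        rw [Nat.card_congr (Subgroup.subgroupOfEquivOfLe htle).toEquiv, Nat.card_zpowers, hto,
          hNc] at h5
        exact Nat.eq_of_mul_eq_mul_right hk0 h5
      haveI := Subgroup.normal_of_index_eq_two hi2
      apply le_normalizer_of_conj_mem
      rintro g hg _ ⟨i, rfl⟩
      have h6 : (⟨g, hg⟩ : N) * ⟨t, htN⟩ * (⟨g, hg⟩ : N)⁻¹ ∈ (Subgroup.zpowers t).subgroupOf N :=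
        Subgroup.Normal.conj_mem inferInstance _
          (by rw [Subgroup.mem_subgroupOf]; exact Subgroup.mem_zpowers t) _
      rw [Subgroup.mem_subgroupOf] at h6
      obtain ⟨b, hb⟩ := h6
      obtain ⟨a, ha⟩ := hct
      simp only at hb ha
      have hb' : t ^ b = g * t * g⁻¹ := by simpa using hb
      refine ⟨b * i, ?_⟩
      simp only
      rw [← MulAut.conj_apply, map_zpow, ← ha, map_zpow, MulAut.conj_apply, ← hb']
      rw [← _root_.zpow_mul, ← _root_.zpow_mul, ← _root_.zpow_mul]
      congr 1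
      ring
  have hcard := card_eq_two_mul_comap τ hidx M hM hML hinj
  rw [← hN0, hNN, hNc] at hcard
  rcases hk with hk | hk
  · left; rw [hcard, hk]
  · right; rw [hcard, hk]

end Cfsg.Agent.Lib.Helper41.Dickson
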