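import Cfsg.Agent.Lib.Helper41.Dickson.PGLMaxCases

/-!
# Maximal subgroups of `PGL₂(q)`, `q` odd: cyclic, dihedral and index-two-free cases
-/

set_option autoImplicit false
set_option linter.style.haveILetI false
set_option linter.unusedSectionVars false
set_option linter.unusedSimpArgs false

namespace Cfsg.Agent.Lib.Helper41.Dickson

open Matrix
open Cfsg.Agent.Lib.Helper41

theorem no_index_two_of_simple {G Q : Type*} [Group G] [Group Q] [IsSimpleGroup Q]
    (N M : Subgroup G) [Finite M] (hNM : N ≤ M) (e : M ≃* Q)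
    (h : Nat.card M = 2 * Nat.card N) (hbig : 2 < Nat.card M) : False := by
  haveI : IsSimpleGroup M := e.isSimpleGroup
  have hc : Nat.card (N.subgroupOf M) = Nat.card N :=
    Nat.card_congr (Subgroup.subgroupOfEquivOfLe hNM).toEquiv
  have hpos : 0 < Nat.card N := by
    haveI : Finite N := Finite.of_injective (Subgroup.inclusion hNM) (Subgroup.inclusion_injective hNM)
    exact Nat.card_pos
  have hi : (N.subgroupOf M).index = 2 := by
    have h2 := (N.subgroupOf M).index_mul_card
    rw [hc, h] at h2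
    exact Nat.eq_of_mul_eq_mul_right hpos h2
  haveI := Subgroup.normal_of_index_eq_two hi
  rcases IsSimpleGroup.eq_bot_or_eq_top_of_normal (N.subgroupOf M) inferInstance with h1 | h1
  · rw [h1, Subgroup.card_bot] at hc
    omega
  · rw [h1, Subgroup.index_top] at hi
    omega

variable {F : Type*} [Field F] [Fintype F]

local notation "SL2" => Matrix.SpecialLinearGroup (Fin 2) F
local notation "PSL2" => Matrix.ProjectiveSpecialLinearGroup (Fin 2) F
local notation "PGL2" => Matrix.ProjGenLinGroup (Fin 2) F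
local notation "M2" => Matrix (Fin 2) (Fin 2) F
local notation "τ" => (Matrix.ProjectiveSpecialLinearGroup.toPGL (n := Fin 2) (R := F))

theorem char_not_dvd_pm (p : ℕ) [Fact p.Prime] [CharP F p] :
    ¬ p ∣ Fintype.card F - 1 ∧ ¬ p ∣ Fintype.card F + 1 := by
  have hp : p.Prime := Fact.out
  obtain ⟨n, -, hq⟩ := FiniteField.card F p
  have hpq : p ∣ Fintype.card F := by rw [hq]; exact dvd_pow_self p n.pos.ne'
  have hpos : 0 < Fintype.card F := Fintype.card_pos
  constructor
  · intro h6
    have h7 := Nat.dvd_sub hpq h6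
    rw [Nat.sub_sub_self (by omega)] at h7
    exact hp.one_lt.ne' (Nat.dvd_one.1 h7)
  · intro h6
    have h7 := Nat.dvd_sub h6 hpq
    rw [Nat.add_sub_cancel_left] at h7
    exact hp.one_lt.ne' (Nat.dvd_one.1 h7)

/-- common part of the cyclic and dihedral cases -/
theorem pgl_rot_card (p : ℕ) [Fact p.Prime] [CharP F p] (hodd : Odd (Fintype.card F))
    (h3 : 3 < Fintype.card F) (M : Subgroup PGL2) (hM : IsCoatom M) (hML : ¬ (τ).range ≤ M)
    (c : PGL2) (hn : M ≤ Subgroup.normalizer ((Subgroup.zpowers c : Subgroup PGL2) : Set PGL2))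
    (k : ℕ) (hk : orderOf c = k) (hkd : k ∣ Fintype.card F - 1 ∨ k ∣ Fintype.card F + 1)
    (hMk : Nat.card M = k ∨ Nat.card M = 2 * k) :
    Nat.card M = 2 * (Fintype.card F - 1) ∨ Nat.card M = 2 * (Fintype.card F + 1) := by
  have hp : p.Prime := Fact.out
  by_cases hc2 : c ^ 2 = 1
  · exfalso
    have h1 : k ∣ 2 := by rw [← hk]; exact orderOf_dvd_of_pow_eq_one hc2
    rcases (Nat.dvd_prime Nat.prime_two).1 h1 with h | h <;> rcases hMk with h' | h'
    · exact card_ne_small hodd h3 M hM 0 (by norm_num) (by rw [h', h]; norm_num)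
    · exact card_ne_small hodd h3 M hM 1 (by norm_num) (by rw [h', h]; norm_num)
    · exact card_ne_small hodd h3 M hM 1 (by norm_num) (by rw [h', h]; norm_num)
    · exact card_ne_small hodd h3 M hM 2 (by norm_num) (by rw [h', h]; norm_num)
  by_cases hcp : c ^ p = 1
  · exfalso
    have h1 : k ∣ p := by rw [← hk]; exact orderOf_dvd_of_pow_eq_one hcp
    rcases (Nat.dvd_prime hp).1 h1 with h | h
    · apply hc2
      rw [← hk, orderOf_eq_one_iff] at h
      rw [h, one_pow]
    · rw [h] at hkd
      rcases hkd with h' | h'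
      · exact (char_not_dvd_pm (F := F) p).1 h'
      · exact (char_not_dvd_pm (F := F) p).2 h'
  exact pgl_card_of_normal_cyclic p hodd h3 M hM hML c hn hc2 hcp

theorem pgl_cyclic_case (p : ℕ) [Fact p.Prime] [CharP F p] (hodd : Odd (Fintype.card F))
    (h3 : 3 < Fintype.card F) (M : Subgroup PGL2) (hM : IsCoatom M) (hML : ¬ (τ).range ≤ M)
    (hcyc : IsCyclic M)
    (hd : Nat.card M ∣ Fintype.card F - 1 ∨ Nat.card M ∣ Fintype.card F + 1) : False := by
  obtain ⟨c, hgen⟩ := IsCyclic.exists_generator (α := M)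
  have hpow : ∀ g ∈ M, ∃ n : ℤ, g = (c : PGL2) ^ n := by
    intro g hg
    obtain ⟨n, hn⟩ := Subgroup.mem_zpowers_iff.1 (hgen ⟨g, hg⟩)
    refine ⟨n, ?_⟩
    have := congrArg Subtype.val hn
    simpa using this.symm
  have hk : orderOf (c : PGL2) = Nat.card M := by
    rw [Subgroup.orderOf_coe]
    exact orderOf_eq_card_of_forall_mem_zpowers hgen
  have hn : M ≤ Subgroup.normalizer ((Subgroup.zpowers (c : PGL2) : Subgroup PGL2) : Set PGL2) := by
    apply le_normalizer_of_conj_mem
    rintro g hg _ ⟨i, rfl⟩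
    obtain ⟨n, rfl⟩ := hpow g hg
    refine ⟨i, ?_⟩
    simp only
    rw [← _root_.zpow_add, add_comm, _root_.zpow_add, mul_assoc, mul_inv_cancel, mul_one]
  have h1 := pgl_rot_card p hodd h3 M hM hML c hn _ hk hd (Or.inl rfl)
  have h2 : Nat.card M ≤ Fintype.card F + 1 := by
    rcases hd with h | h
    · have := Nat.le_of_dvd (by omega) h
      omega
    · exact Nat.le_of_dvd (by omega) h
  omega

theorem pgl_dihedral_case (p : ℕ) [Fact p.Prime] [CharP F p] (hodd : Odd (Fintype.card F))
    (h3 : 3 < Fintype.card F) (M : Subgroup PGL2) (hM : IsCoatom M) (hML : ¬ (τ).range ≤ M)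
    (k : ℕ) (hkd : k ∣ Fintype.card F - 1 ∨ k ∣ Fintype.card F + 1) (e : M ≃* DihedralGroup k) :
    (Fintype.card F ≠ 5 ∧ Nonempty (M ≃* DihedralGroup (Fintype.card F - 1))) ∨
    Nonempty (M ≃* DihedralGroup (Fintype.card F + 1)) := by
  classical
  haveI := finite_pgl2 (F := F)
  haveI : IsSimpleGroup PSL2 := Matrix.ProjectiveSpecialLinearGroup.rank_two_simple (by
    rw [Nat.card_eq_fintype_card]; omega)
  haveI : Fact (Nat.Prime 2) := ⟨Nat.prime_two⟩
  have hMc : Nat.card M = 2 * k := by rw [Nat.card_congr e.toEquiv, DihedralGroup.nat_card]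
  obtain ⟨c, -, hc, hn⟩ := dihedral_rot M k e
  have h1 := pgl_rot_card p hodd h3 M hM hML c hn k hc hkd (Or.inr hMc)
  rw [hMc] at h1
  rcases h1 with h1 | h1
  · left
    have hk : k = Fintype.card F - 1 := by omega
    subst hk
    refine ⟨?_, ⟨e⟩⟩
    intro h5
    -- `M ∩ L` would be a self-normalizing abelian Sylow `2`-subgroup of the simple group `L`
    have hidx := index_range_toPGL F (by rw [Nat.card_eq_fintype_card]; exact hodd)
    have hinj := Matrix.ProjectiveSpecialLinearGroup.toPGL_injective (n := Fin 2) (R := F)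
    have hcl := spanClosed_comap hodd h3 M hM hML
    have hcard := card_eq_two_mul_comap τ hidx M hM hML hinj
    rw [hMc, h5] at hcard
    have h4 : Nat.card (M.comap τ) = 2 ^ 2 := by omega
    have hG := two_mul_card_psl hodd
    rw [h5] at hG
    have hG' : Nat.card PSL2 = 60 := by
      have : 5 * (5 ^ 2 - 1) = 120 := by norm_num
      omega
    obtain ⟨P, hP⟩ := exists_sylow_of_card 2 2 (by rw [hG']; norm_num) (M.comap τ) h4
    refine normalizer_ne_of_simple 2 P ?_ ?_ ?_ (by rw [hP]; exact hcl.norm)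
    · intro x hx y hy
      have hx' : x ∈ M.comap τ := hP ▸ hx
      have hy' : y ∈ M.comap τ := hP ▸ hy
      exact congrArg Subtype.val
        ((IsPGroup.isMulCommutative_of_card_eq_prime_sq h4).is_comm.comm ⟨x, hx'⟩ ⟨y, hy'⟩)
    · rw [hP]
      intro h
      rw [h, Subgroup.card_bot] at h4
      omega
    · rw [hP]
      intro h
      rw [h, Subgroup.card_top, hG'] at h4
      omega
  · right
    have hk : k = Fintype.card F + 1 := by omega
    subst hk
    exact ⟨e⟩

end Cfsg.Agent.Lib.Helper41.Dickson
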