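import Cfsg.Agent.Lib.Helper41.Dickson.PGLMaxCases2

/-!
# Maximal subgroups of `PGL₂(q)`, `q` odd: the cases `S₄` and `PGL₂(q₀)`
-/

set_option autoImplicit false
set_option linter.style.haveILetI false
set_option linter.unusedSectionVars false
set_option linter.unusedSimpArgs false

namespace Cfsg.Agent.Lib.Helper41.Dickson

open Matrix
open Cfsg.Agent.Lib.Helper41

theorem index_two_image {G Q : Type*} [Group G] [Group Q] (N M : Subgroup G) [Finite M]
    (hNM : N ≤ M) (e : M ≃* Q) (h : Nat.card M = 2 * Nat.card N) :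
    ((N.subgroupOf M).map e.toMonoidHom).index = 2 := by
  have h1 : Nat.card ((N.subgroupOf M).map e.toMonoidHom) = Nat.card N := by
    rw [← Nat.card_congr ((N.subgroupOf M).equivMapOfInjective e.toMonoidHom e.injective).toEquiv,
      Nat.card_congr (Subgroup.subgroupOfEquivOfLe hNM).toEquiv]
  have h2 := ((N.subgroupOf M).map e.toMonoidHom).card_mul_index
  rw [h1, ← Nat.card_congr e.toEquiv, h] at h2
  have h3 : 0 < Nat.card N := by
    haveI : Finite N := Finite.of_injective (Subgroup.inclusion hNM) (Subgroup.inclusion_injective hNM)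
    exact Nat.card_pos
  have h4 : Nat.card N * ((N.subgroupOf M).map e.toMonoidHom).index = Nat.card N * 2 := by
    rw [h2]; ring
  exact Nat.eq_of_mul_eq_mul_left h3 h4

theorem mem_iff_of_image {G Q : Type*} [Group G] [Group Q] (N M : Subgroup G) (e : M ≃* Q)
    (N' : Subgroup Q) (h : (N.subgroupOf M).map e.toMonoidHom = N') (g : G) (hg : g ∈ M) :
    g ∈ N ↔ e ⟨g, hg⟩ ∈ N' := by
  rw [← h]
  constructor
  · intro hgN
    exact ⟨⟨g, hg⟩, by rw [SetLike.mem_coe, Subgroup.mem_subgroupOf]; exact hgN, rfl⟩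
  · rintro ⟨y, hy, hye⟩
    have : y = ⟨g, hg⟩ := e.injective hye
    rw [this, SetLike.mem_coe, Subgroup.mem_subgroupOf] at hy
    exact hy

/-- the unique subgroup of index two of `PGL₂(K)`, `|K| > 3` odd -/
theorem eq_range_of_index_two (K : Type*) [Field K] [Finite K] (hodd : Odd (Nat.card K))
    (h4 : 4 ≤ Nat.card K) (N' : Subgroup (Matrix.ProjGenLinGroup (Fin 2) K)) (hN' : N'.index = 2) :
    N' = (Matrix.ProjectiveSpecialLinearGroup.toPGL (n := Fin 2) (R := K)).range := by
  classical
  haveI := finite_pgl2 (F := K)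
  haveI : IsSimpleGroup (Matrix.ProjectiveSpecialLinearGroup (Fin 2) K) :=
    Matrix.ProjectiveSpecialLinearGroup.rank_two_simple h4
  haveI := Subgroup.normal_of_index_eq_two hN'
  have hinj := Matrix.ProjectiveSpecialLinearGroup.toPGL_injective (n := Fin 2) (R := K)
  have hidx := index_range_toPGL K hodd
  let φ : Matrix.ProjectiveSpecialLinearGroup (Fin 2) K →* (Matrix.ProjGenLinGroup (Fin 2) K ⧸ N') :=
    (QuotientGroup.mk' N').comp (Matrix.ProjectiveSpecialLinearGroup.toPGL (n := Fin 2) (R := K))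
  have hle : (Matrix.ProjectiveSpecialLinearGroup.toPGL (n := Fin 2) (R := K)).range ≤ N' := by
    rcases IsSimpleGroup.eq_bot_or_eq_top_of_normal φ.ker inferInstance with h | h
    · exfalso
      have hφ : Function.Injective φ := (MonoidHom.ker_eq_bot_iff φ).1 h
      have h1 := Nat.card_le_card_of_injective φ hφ
      have h2 : Nat.card (Matrix.ProjGenLinGroup (Fin 2) K ⧸ N') = 2 := hN'
      rw [h2] at h1
      have h3 := natCard_PSL2 K
      have hg : Nat.gcd 2 (Nat.card K - 1) ≤ 2 := Nat.gcd_le_left _ (by norm_num)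
      have h5 : 4 ^ 2 ≤ Nat.card K ^ 2 := Nat.pow_le_pow_left h4 2
      have h6 : 4 * 15 ≤ Nat.card K * (Nat.card K ^ 2 - 1) := Nat.mul_le_mul h4 (by omega)
      have h7 : Nat.gcd 2 (Nat.card K - 1) *
          Nat.card (Matrix.ProjectiveSpecialLinearGroup (Fin 2) K) ≤ 2 * 2 := Nat.mul_le_mul hg h1
      omega
    · rintro _ ⟨y, rfl⟩
      have h1 : y ∈ φ.ker := by rw [h]; trivial
      rw [MonoidHom.mem_ker] at h1
      exact (QuotientGroup.eq_one_iff _).1 h1
  symm
  apply Subgroup.eq_of_le_of_card_ge hle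
  have h1 := N'.card_mul_index
  have h2 := (Matrix.ProjectiveSpecialLinearGroup.toPGL (n := Fin 2) (R := K)).range.card_mul_index
  rw [hN'] at h1
  rw [hidx] at h2
  omega

variable {F : Type*} [Field F] [Fintype F]

local notation "SL2" => Matrix.SpecialLinearGroup (Fin 2) F
local notation "PSL2" => Matrix.ProjectiveSpecialLinearGroup (Fin 2) F
local notation "PGL2" => Matrix.ProjGenLinGroup (Fin 2) F
local notation "M2" => Matrix (Fin 2) (Fin 2) F
local notation "τ" => (Matrix.ProjectiveSpecialLinearGroup.toPGL (n := Fin 2) (R := F))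

theorem card_map_comap (M : Subgroup PGL2) :
    Nat.card ((M.comap τ).map τ : Subgroup PGL2) = Nat.card (M.comap τ) :=
  (Nat.card_congr ((M.comap τ).equivMapOfInjective τ
    Matrix.ProjectiveSpecialLinearGroup.toPGL_injective).toEquiv).symm

theorem map_comap_le (M : Subgroup PGL2) : (M.comap τ).map τ ≤ M := Subgroup.map_comap_le _ _

theorem pgl_perm_four_case (p : ℕ) [Fact p.Prime] [CharP F p] (hodd : Odd (Fintype.card F))
    (h3 : 3 < Fintype.card F) (M : Subgroup PGL2) (hM : IsCoatom M) (hML : ¬ (τ).range ≤ M)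
    (e : M ≃* Equiv.Perm (Fin 4)) :
    ((Fintype.card F).Prime ∧ (Fintype.card F % 8 = 3 ∨ Fintype.card F % 8 = 5) ∧
      Nonempty (M ≃* Equiv.Perm (Fin 4))) ∨
    (∃ (F₀ : Type) (_ : Field F₀) (_ : Fintype F₀) (r : ℕ), r.Prime ∧ Odd r ∧
      Fintype.card F = Fintype.card F₀ ^ r ∧ Nonempty (M ≃* Matrix.ProjGenLinGroup (Fin 2) F₀)) := by
  classical
  haveI := finite_pgl2 (F := F)
  haveI : IsSimpleGroup PSL2 := Matrix.ProjectiveSpecialLinearGroup.rank_two_simple (by
    rw [Nat.card_eq_fintype_card]; omega)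
  haveI : Fact (Nat.Prime 2) := ⟨Nat.prime_two⟩
  have hp : p.Prime := Fact.out
  have hp2 := char_ne_two_of_odd p hodd
  have h2 := two_ne_zero_of_odd hodd
  have hG := two_mul_card_psl hodd
  have hidx := index_range_toPGL F (by rw [Nat.card_eq_fintype_card]; exact hodd)
  have hinj := Matrix.ProjectiveSpecialLinearGroup.toPGL_injective (n := Fin 2) (R := F)
  have hcl := spanClosed_comap hodd h3 M hM hML
  have hcard := card_eq_two_mul_comap τ hidx M hM hML hinj
  have hMc : Nat.card M = 24 := by rw [Nat.card_congr e.toEquiv, natCard_perm_four]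
  have hM0c : Nat.card (M.comap τ) = 12 := by omega
  have hM0top := comap_ne_top τ M hML
  -- the index two subgroup corresponds to `A₄`
  have hN' : ((((M.comap τ).map τ : Subgroup PGL2)).subgroupOf M).map e.toMonoidHom =
      alternatingGroup (Fin 4) :=
    Equiv.Perm.eq_alternatingGroup_of_index_eq_two
      (index_two_image _ M (map_comap_le M) e (by rw [card_map_comap]; exact hcard))
  have hiff := mem_iff_of_image _ M e _ hN'
  have hord' : ∀ g ∈ M.comap τ, g ^ 2 = 1 ∨ g ^ 3 = 1 := by
    intro g hg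
    have h1 : e ⟨τ g, hg⟩ ∈ alternatingGroup (Fin 4) := (hiff (τ g) hg).1 ⟨g, hg, rfl⟩
    have h4 : ∀ k : ℕ, (e ⟨τ g, hg⟩) ^ k = 1 → g ^ k = 1 := by
      intro k hk
      rw [← map_pow] at hk
      have h5 := e.injective (hk.trans (map_one e).symm)
      have h6 : (τ g) ^ k = 1 := congrArg Subtype.val h5
      rw [← map_pow] at h6
      exact hinj (h6.trans (map_one _).symm)
    rcases alt4_orders _ h1 with h | h
    · exact Or.inl (h4 2 h)
    · exact Or.inr (h4 3 h)
  -- the normal four-group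
  have h4 : Nat.card (Fin 4) = 4 := by simp
  haveI := alternatingGroup.characteristic_kleinFour h4
  haveI hV4n : ((alternatingGroup.kleinFour (Fin 4)).map
      (alternatingGroup (Fin 4)).subtype).Normal := ConjAct.normal_of_characteristic_of_normal
  obtain ⟨V, hVM, hVc, hVn, hVe⟩ := transport_normal M e
    ((alternatingGroup.kleinFour (Fin 4)).map (alternatingGroup (Fin 4)).subtype)
  have hVc' : Nat.card V = 4 := by
    rw [hVc, ← Nat.card_congr ((alternatingGroup.kleinFour (Fin 4)).equivMapOfInjective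
      (alternatingGroup (Fin 4)).subtype (alternatingGroup (Fin 4)).subtype_injective).toEquiv]
    exact alternatingGroup.kleinFour_card_of_card_eq_four h4
  have hVr : V ≤ (τ).range := by
    intro v hv
    obtain ⟨hm, hve⟩ := hVe v hv
    have h5 : e ⟨v, hm⟩ ∈ alternatingGroup (Fin 4) := by
      obtain ⟨w, -, hw⟩ := hve
      rw [← hw]
      exact w.2
    obtain ⟨x, -, hx⟩ := (hiff v hm).2 h5
    exact ⟨x, hx⟩
  set D : Subgroup PSL2 := V.comap τ with hD
  have hDmap : D.map τ = V := Subgroup.map_comap_eq_self hVr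
  have hDc : Nat.card D = 4 := by
    rw [← hVc', ← hDmap]
    exact Nat.card_congr (D.equivMapOfInjective τ hinj).toEquiv
  have hDM0 : D ≤ M.comap τ := Subgroup.comap_mono hVM
  have hND := normalizer_eq_comap τ hinj M hM D
    (by
      intro h
      rw [h, Subgroup.card_bot] at hDc
      omega)
    (by
      intro h
      apply hM0top
      rw [eq_top_iff, ← h]
      exact hDM0)
    (by rw [hDmap]; exact hVn)
  have hD2 : ∀ v ∈ D, v ^ 2 = 1 := by
    intro v hv
    have h6 : orderOf v ∣ 4 := by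
      have := orderOf_dvd_natCard (⟨v, hv⟩ : D)
      rwa [Subgroup.orderOf_mk, hDc] at this
    rcases hord' v (hDM0 hv) with h | h
    · exact h
    · have h7 : orderOf v ∣ 3 := orderOf_dvd_of_pow_eq_one h
      have h8 : orderOf v ∣ Nat.gcd 4 3 := Nat.dvd_gcd h6 h7
      have h9 : orderOf v = 1 := Nat.dvd_one.1 (by simpa using h8)
      rw [orderOf_eq_one_iff.1 h9, one_pow]
  have h8 : ¬ 2 ^ (2 + 1) ∣ Nat.card PSL2 := by
    intro hdvd
    have := Sylow.prime_pow_dvd_card_normalizer hdvd (H := D) (by rw [hDc]; norm_num)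
    rw [hND, hM0c] at this
    norm_num at this
  have hq8 : ¬ (Fintype.card F % 8 = 1 ∨ Fintype.card F % 8 = 7) := fun h =>
    h8 (by simpa using eight_dvd_of_mod hG h)
  have hq8' : Fintype.card F % 8 = 3 ∨ Fintype.card F % 8 = 5 := by
    obtain ⟨j, hj⟩ := hodd
    omega
  have htr : ∀ j : ℕ, ∀ X : SL2, (QuotientGroup.mk X : PSL2) ∈ M.comap τ →
      Matrix.trace (X : M2) ^ p ^ j = Matrix.trace (X : M2) := by
    intro j X hX
    obtain ⟨z, hz⟩ := trace_int_of_two_three X (hord' _ hX)
    rw [hz, intCast_pow_char]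
  obtain ⟨n, -, hn⟩ := FiniteField.card F p
  by_cases hn1 : (n : ℕ) = 1
  · left
    rw [hn1, pow_one] at hn
    exact ⟨by rw [hn]; exact hp, hq8', ⟨e⟩⟩
  · right
    have hn2 : 2 ≤ (n : ℕ) := by
      have := n.pos
      omega
    have hlt : p ^ 1 < Fintype.card F := by
      rw [hn]
      exact Nat.pow_lt_pow_right hp.one_lt (by omega)
    obtain ⟨a, ha0, hdvd, -⟩ := klein_frob_closed p h2 (M.comap τ) hcl 1 one_ne_zero hlt (htr 1) D
      hDM0 hDc hD2
    have hp12 : p ∣ 12 := by
      rw [← hM0c]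
      exact (dvd_pow_self p ha0).trans hdvd
    have hp3 : p = 3 := by
      have h12 : (12 : ℕ) = 2 ^ 2 * 3 := by norm_num
      rw [h12] at hp12
      rcases (Nat.Prime.dvd_mul hp).1 hp12 with h | h
      · exact absurd ((Nat.prime_dvd_prime_iff_eq hp Nat.prime_two).1 (hp.dvd_of_dvd_pow h)) hp2
      · exact (Nat.prime_dvd_prime_iff_eq hp Nat.prime_three).1 h
    subst hp3
    obtain ⟨u, hu⟩ := exists_prime_orderOf_dvd_card' (G := M.comap τ) 3 (by rw [hM0c]; norm_num)
    have hprime := prime_exponent_closed 3 (M.comap τ) hcl 1 n one_ne_zero hn2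
      (by rw [hn, pow_one]) (htr 1) u u.2
      (by
        intro h
        have : u = 1 := Subtype.ext h
        rw [this, orderOf_one] at hu
        omega)
      (by
        have := pow_orderOf_eq_one u
        rw [hu] at this
        exact congrArg Subtype.val this)
      (by
        intro k hk
        rw [hM0c] at hk
        apply Nat.pow_le_pow_right (by norm_num)
        by_contra hcon
        have h9 : 3 ^ 2 ∣ 12 := (pow_dvd_pow 3 (by omega)).trans hk
        norm_num at h9)
    have hnodd : Odd (n : ℕ) := by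
      rcases hprime.eq_two_or_odd' with h | h
      · exfalso
        apply hq8
        rw [hn, h]
        norm_num
      · exact h
    obtain ⟨e2⟩ := pgl2_three (ZMod 3) (ZMod.card 3)
    exact ⟨ZMod 3, inferInstance, inferInstance, n, hprime, hnodd, by rw [hn, ZMod.card 3],
      ⟨e.trans e2.symm⟩⟩

theorem pgl_pgl_case (p : ℕ) [Fact p.Prime] [CharP F p] (hodd : Odd (Fintype.card F))
    (h3 : 3 < Fintype.card F) (M : Subgroup PGL2) (hM : IsCoatom M) (hML : ¬ (τ).range ≤ M)
    (K : Subfield F) (e : M ≃* Matrix.ProjGenLinGroup (Fin 2) K) :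
    ((Fintype.card F).Prime ∧ (Fintype.card F % 8 = 3 ∨ Fintype.card F % 8 = 5) ∧
      Nonempty (M ≃* Equiv.Perm (Fin 4))) ∨
    (∃ (F₀ : Type) (_ : Field F₀) (_ : Fintype F₀) (r : ℕ), r.Prime ∧ Odd r ∧
      Fintype.card F = Fintype.card F₀ ^ r ∧ Nonempty (M ≃* Matrix.ProjGenLinGroup (Fin 2) F₀)) := by
  classical
  haveI := finite_pgl2 (F := F)
  haveI : IsSimpleGroup PSL2 := Matrix.ProjectiveSpecialLinearGroup.rank_two_simple (by
    rw [Nat.card_eq_fintype_card]; omega)
  haveI : Fintype K := Fintype.ofFinite _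
  have hidx := index_range_toPGL F (by rw [Nat.card_eq_fintype_card]; exact hodd)
  have hinj := Matrix.ProjectiveSpecialLinearGroup.toPGL_injective (n := Fin 2) (R := F)
  obtain ⟨m, hm, hqm, hK2⟩ := subfield_card K
  have hKodd : Odd (Nat.card K) := by
    rw [hqm] at hodd
    rcases Nat.even_or_odd (Nat.card K) with he | ho
    · exact absurd (he.pow_of_ne_zero (by omega : m ≠ 0)) (Nat.not_even_iff_odd.2 hodd)
    · exact ho
  by_cases hK3 : Nat.card K = 3
  · obtain ⟨e2⟩ := pgl2_three K (by rw [← Nat.card_eq_fintype_card]; exact hK3)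
    exact pgl_perm_four_case p hodd h3 M hM hML (e.trans e2)
  right
  have hK4 : 4 ≤ Nat.card K := by
    obtain ⟨a, ha⟩ := hKodd
    omega
  have hcl := spanClosed_comap hodd h3 M hM hML
  have hcard := card_eq_two_mul_comap τ hidx M hM hML hinj
  have hN' := eq_range_of_index_two K hKodd hK4 _
      (index_two_image _ M (map_comap_le M) e (by rw [card_map_comap]; exact hcard))
  have hiff := mem_iff_of_image _ M e _ hN'
  have hinjK := Matrix.ProjectiveSpecialLinearGroup.toPGL_injective (n := Fin 2) (R := K)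
  have hres := psl_sub_closed p hodd (by obtain ⟨a, ha⟩ := hodd; omega) (M.comap τ) hcl
    (comap_ne_top τ M hML) K m hm hqm
    (by
      intro g hg
      have hg' : τ g ∈ M := hg
      obtain ⟨y, hy⟩ := (hiff (τ g) hg').1 ⟨g, hg, rfl⟩
      refine ⟨y, ?_⟩
      rw [← orderOf_injective _ hinjK y, hy, e.orderOf_eq, Subgroup.orderOf_mk,
        orderOf_injective _ hinj g])
    (by rw [← hcard, Nat.card_congr e.toEquiv, natCard_PGL2])
  obtain ⟨K', i1, i2, hc', ⟨eK⟩⟩ := Cfsg.Agent.S0799.exists_small_model (K := K)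
  exact ⟨K', i1, i2, m, hres.1, hres.2, by rw [hc', hqm], ⟨e.trans (pglCongr eK)⟩⟩

end Cfsg.Agent.Lib.Helper41.Dickson
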