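import Cfsg.Agent.Lib.Helper41.Dickson.Witness
import Cfsg.Agent.Lib.Helper72.PermSolvable

/-!
# Solvability of the small members of Dickson's list
-/

set_option autoImplicit false
set_option linter.style.haveILetI false
set_option linter.unusedSectionVars false
set_option linter.unusedSimpArgs false

namespace Cfsg.Agent.Lib.Helper41.Dickson

open Matrix OnePoint MulAction
open scoped MatrixGroups

theorem solvable_of_comm_mem {M : Type*} [Group M] (A : Subgroup M)
    (hA : ∀ a ∈ A, ∀ b ∈ A, a * b = b * a) (hcomm : ∀ a b : M, a * b * a⁻¹ * b⁻¹ ∈ A) :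
    Group.IsSolvable M := by
  refine ⟨⟨2, ?_⟩⟩
  have h1 : derivedSeries M 1 ≤ A := by
    rw [derivedSeries_one, commutator_def, Subgroup.commutator_le]
    intro a _ b _
    exact hcomm a b
  rw [derivedSeries_succ, eq_bot_iff]
  refine le_trans (Subgroup.commutator_mono h1 h1) ?_
  rw [Subgroup.commutator_le]
  intro a ha b hb
  rw [Subgroup.mem_bot, commutatorElement_def, hA a ha b hb]
  group

/-- the rotation subgroup -/
def rot (k : ℕ) : Subgroup (DihedralGroup k) where
  carrier := Set.range DihedralGroup.r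
  one_mem' := ⟨0, rfl⟩
  mul_mem' := by
    rintro _ _ ⟨i, rfl⟩ ⟨j, rfl⟩
    exact ⟨i + j, rfl⟩
  inv_mem' := by
    rintro _ ⟨i, rfl⟩
    exact ⟨-i, rfl⟩

theorem dihedral_solvable (k : ℕ) : Group.IsSolvable (DihedralGroup k) := by
  apply solvable_of_comm_mem (rot k)
  · rintro _ ⟨i, rfl⟩ _ ⟨j, rfl⟩
    simp [add_comm]
  · intro a b
    rcases a with i | i <;> rcases b with j | j
    · exact ⟨_, by simp; rfl⟩
    · exact ⟨_, by simp; rfl⟩
    · exact ⟨_, by simp; rfl⟩
    · exact ⟨_, by simp; rfl⟩

theorem solvable_of_mulEquiv {M M' : Type*} [Group M] [Group M'] (e : M ≃* M')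
    (h : Group.IsSolvable M') : Group.IsSolvable M :=
  Group.isSolvable_of_isSolvable_injective (f := e.toMonoidHom) e.injective

theorem not_solvable_of_simple_wit {M : Type*} [Group M] [IsSimpleGroup M] (h : Wit M) :
    ¬ Group.IsSolvable M := by
  intro hs
  obtain ⟨⟨a, b, hab⟩, -⟩ := h
  exact hab (IsSimpleGroup.comm_iff_isSolvable.2 hs _ _)

theorem alt_five_not_solvable : ¬ Group.IsSolvable (alternatingGroup (Fin 5)) := by
  haveI : IsSimpleGroup (alternatingGroup (Fin 5)) := alternatingGroup.isSimpleGroup (by simp)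
  exact not_solvable_of_simple_wit wit_alt_five

variable {F : Type*} [Field F] [Fintype F]

local notation "G" => Matrix.ProjectiveSpecialLinearGroup (Fin 2) F

theorem borel_solvable (p : ℕ) [Fact p.Prime] [CharP F p] (P : Sylow p G) (M : Subgroup G)
    (hM : M ≤ Subgroup.normalizer ((P : Subgroup G) : Set G)) : Group.IsSolvable M := by
  obtain ⟨-, -, -, h3, h4, -⟩ := borel_package p P
  apply solvable_of_comm_mem ((P : Subgroup G).subgroupOf M)
  · intro a ha b hb
    exact Subtype.ext (h4 _ ha _ hb)
  · intro a b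
    exact h3 _ (hM a.2) _ (hM b.2)

theorem psl2_not_comm : ¬ ∀ a b : G, a * b = b * a := by
  intro hcomm
  obtain ⟨p, hp⟩ := CharP.exists F
  haveI : Fact p.Prime := ⟨(CharP.char_is_prime_or_zero F p).resolve_right
    (CharP.char_ne_zero_of_finite F p)⟩
  obtain ⟨P⟩ : Nonempty (Sylow p G) := inferInstance
  have h1 := (borel_package p P).1
  have h2 : Subgroup.normalizer ((P : Subgroup G) : Set G) = ⊤ := by
    rw [eq_top_iff]
    intro g _
    rw [Subgroup.mem_normalizer_iff]
    intro a
    rw [hcomm g a, mul_inv_cancel_right]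
  rw [h2, Subgroup.index_top] at h1
  have : 0 < Fintype.card F := Fintype.card_pos
  omega

theorem psl2_not_solvable (h4 : 4 ≤ Fintype.card F) : ¬ Group.IsSolvable G := by
  haveI : IsSimpleGroup G :=
    Matrix.ProjectiveSpecialLinearGroup.rank_two_simple (by rw [Nat.card_eq_fintype_card]; exact h4)
  intro hs
  exact psl2_not_comm (IsSimpleGroup.comm_iff_isSolvable.2 hs)

theorem psl2_solvable (h3 : Fintype.card F ≤ 3) : Group.IsSolvable G := by
  classical
  letI := pslAct F (AlgebraicClosure F)
  set hG := psl_mob (F := F) (L := AlgebraicClosure F)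
  have hn : hG.n ∞ = Fintype.card F + 1 := n_infty
  have hq2 : 2 ≤ Fintype.card F := Fintype.one_lt_card
  have hinj := hG.faithful_on_orbit (x := ∞) (by rw [hn]; omega)
  have hfin : (orbit G (∞ : OnePoint (AlgebraicClosure F))).Finite := Set.finite_range _
  haveI := hfin.fintype
  haveI : Group.IsSolvable (Equiv.Perm (orbit G (∞ : OnePoint (AlgebraicClosure F)))) := by
    apply Cfsg.Agent.Lib.Helper72.isSolvable_perm_of_card_le_four
    rw [← Nat.card_eq_fintype_card, Nat.card_coe_set_eq, ← hG.n_eq_ncard, hn]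
    omega
  exact Group.isSolvable_of_isSolvable_injective hinj

theorem pgl2_solvable (h3 : Fintype.card F ≤ 3) :
    Group.IsSolvable (Matrix.ProjGenLinGroup (Fin 2) F) := by
  haveI := psl2_solvable h3
  apply Group.isSolvable_of_ker_le_range
    (Matrix.ProjectiveSpecialLinearGroup.toPGL (n := Fin 2) (R := F))
    (@Abelianization.of (Matrix.ProjGenLinGroup (Fin 2) F) _)
  rw [Abelianization.ker_of, commutator_def, Subgroup.commutator_le]
  intro a _ b _
  induction a using Matrix.ProjGenLinGroup.induction_on with | mk g =>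
  induction b using Matrix.ProjGenLinGroup.induction_on with | mk g' =>
  rw [commutatorElement_def, ← map_inv, ← map_inv, ← map_mul, ← map_mul, ← map_mul]
  apply Cfsg.Agent.Lib.Helper14.pgl2_mk_mem_range
  refine ⟨1, ?_⟩
  rw [map_mul, map_mul, map_mul, map_inv, map_inv]
  simp [mul_comm]

end Cfsg.Agent.Lib.Helper41.Dickson
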